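import Mathlib

/-!
# Arithmetic of the order formulas for dihedral Sylow 2-subgroups of order eight
-/

set_option autoImplicit false

namespace Cfsg.Agent.SmallCent.Arith

open Nat in
/-- The two order equations, `x₁ δ₁ = 8 K + 1`, `p = δ₂ x₂`, `q = δ₃ x₃`. -/
structure Eqs (g a b : ℕ) (K p q : ℤ) : Prop where
  K0 : K ≠ 0
  order : (g : ℤ) * K ^ 2 = a * b * ((a : ℤ) + b) ^ 2 * ((8 * K + 1) * (8 * K + 2))
  pq : p + q = -(8 * K + 2)
  pair : (g : ℤ) * (8 * K + 2) * (p * q - (8 * K + 1))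
    = 256 * (a : ℤ) ^ 2 * (b : ℤ) ^ 2 * (8 * K + 1) * (p * q)

theorem exists_sq {E U W : ℤ} (h : E * U ^ 2 = W ^ 2) (hW : W ≠ 0) : ∃ e, E = e ^ 2 := by
  have hU : U ≠ 0 := fun e => hW (by subst e; simpa using h.symm)
  obtain ⟨e, rfl⟩ : U ∣ W := (Int.pow_dvd_pow_iff two_ne_zero).1 ⟨E, by rw [← h, mul_comm]⟩
  exact ⟨e, mul_right_cancel₀ (pow_ne_zero 2 hU) (by rw [h]; ring)⟩

theorem Eqs.disc {g a b : ℕ} {K p q : ℤ} (E : Eqs g a b K p q) (ha : 0 < a) (hb : 0 < b) :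
    ((8 * K + 2) ^ 2 * ((a : ℤ) + b) ^ 2 - 256 * a * b * K ^ 2) * (p - q) ^ 2
      = (8 * K * (8 * K + 2) * ((a : ℤ) - b)) ^ 2 := by
  have hX : (8 * K + 1 : ℤ) ≠ 0 := by omega
  have h1 : (8 * K + 2) ^ 2 * ((a : ℤ) + b) ^ 2 * (p * q - (8 * K + 1))
      = 256 * a * b * K ^ 2 * (p * q) := by
    refine mul_left_cancel₀ (mul_ne_zero (mul_ne_zero (Int.natCast_ne_zero.2 ha.ne')
      (Int.natCast_ne_zero.2 hb.ne')) hX) ?_
    linear_combination K ^ 2 * E.pair - (8 * K + 2) * (p * q - (8 * K + 1)) * E.order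
  linear_combination (-4) * h1
    + ((8 * K + 2) ^ 2 * ((a : ℤ) + b) ^ 2 - 256 * a * b * K ^ 2) * (p + q - (8 * K + 2)) * E.pq

theorem coprime_factors (K : ℤ) :
    IsCoprime (2 * K) (8 * K + 1) ∧ IsCoprime (2 * K) (4 * K + 1) :=
  ⟨⟨-4, 1, by ring⟩, ⟨-2, 1, by ring⟩⟩

theorem Eqs.order_eight {g a b : ℕ} {K p q : ℤ} (E : Eqs g a b K p q) {k : ℕ} (hk : g = 8 * k) :
    4 * (k : ℤ) * K ^ 2 = a * b * ((a : ℤ) + b) ^ 2 * ((8 * K + 1) * (4 * K + 1)) := by
  have h := E.order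
  subst hk
  push_cast at h
  linarith

theorem dvd_bound {m c : ℤ} (hc : 0 < c) (h : m ∣ c) : -c ≤ m ∧ m ≤ c :=
  ⟨by linarith [Int.le_of_dvd hc (neg_dvd.2 h)], Int.le_of_dvd hc h⟩

/-- The possibilities when the centralizer cores are coprime to `K`. -/
theorem coprime_case {g a : ℕ} {K p q : ℤ} (E : Eqs g a 1 K p q) (ha : Odd a) (ha3 : 3 ≤ a)
    (h8 : 8 ∣ g) (hco : IsCoprime (a : ℤ) K) :
    (a = 3 ∧ K = -2) ∨ (a = 5 ∧ K = -1) ∨ (a = 9 ∧ K = -1) := by
  obtain ⟨k, hk⟩ := h8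
  have hE := E.order_eight hk
  obtain ⟨l, hl⟩ := ha
  have h2 : IsCoprime (2 * K) (a : ℤ) :=
    IsCoprime.mul_left ⟨-(l : ℤ), 1, by rw [hl]; push_cast; ring⟩ hco.symm
  obtain ⟨c1, c2⟩ := coprime_factors K
  have hd : (2 * K) ^ 2 ∣ ((a : ℤ) + 1) ^ 2 := by
    refine (IsCoprime.pow_left (m := 2) ((h2.mul_right c1).mul_right c2)).dvd_of_dvd_mul_left
      ⟨k, ?_⟩
    linear_combination -hE
  obtain ⟨m, hm⟩ := (Int.pow_dvd_pow_iff two_ne_zero).1 hd
  have hD := E.disc (by omega) one_pos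
  obtain ⟨e₀, he₀⟩ : ∃ e, (2 * ((a : ℤ) + 1) + m) ^ 2 - 16 * a = e ^ 2 := by
    refine exists_sq (U := 4 * K * (p - q))
      (W := 8 * K * (8 * K + 2) * ((a : ℤ) - (1 : ℕ))) ?_ ?_
    · rw [← hD, hm]; push_cast; rw [hm]; ring
    · refine mul_ne_zero (mul_ne_zero (mul_ne_zero (by norm_num) E.K0) (by omega)) ?_
      push_cast; omega
  obtain ⟨e, he0, he⟩ : ∃ e, 0 ≤ e ∧ (2 * ((a : ℤ) + 1) + m) ^ 2 - 16 * a = e ^ 2 :=
    ⟨|e₀|, abs_nonneg _, by rw [sq_abs]; exact he₀⟩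
  have haZ : (3 : ℤ) ≤ a := by exact_mod_cast ha3
  have hm0 : m ≠ 0 := fun e => by subst e; omega
  have hmb : 2 * m ≤ (a : ℤ) + 1 ∧ -(2 * m) ≤ (a : ℤ) + 1 := by
    rcases lt_or_gt_of_ne E.K0 with h | h
    · have hm' : m < 0 := by
        by_contra hc
        have := mul_nonpos_of_nonpos_of_nonneg (show 2 * K ≤ 0 by omega) (show 0 ≤ m by omega)
        omega
      have := mul_le_mul_of_nonpos_right (show 2 * K ≤ -2 by omega) hm'.le
      constructor <;> omega
    · have hm' : 0 < m := by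
        by_contra hc
        have := mul_nonpos_of_nonneg_of_nonpos (show 0 ≤ 2 * K by omega) (show m ≤ 0 by omega)
        omega
      have := mul_le_mul_of_nonneg_right (show 2 ≤ 2 * K by omega) hm'.le
      constructor <;> omega
  set M0 := 2 * ((a : ℤ) + 1) + m with hM0
  have hM0pos : 0 < M0 := by omega
  have hlt : e < M0 := lt_of_pow_lt_pow_left₀ 2 hM0pos.le (by linarith only [he, haZ])
  obtain ⟨u, hu⟩ : ∃ u, u = M0 - e := ⟨_, rfl⟩
  have huv : u * (2 * M0 - u) = 16 * a := by rw [hu]; linear_combination he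
  have hu10 : u ≤ 10 := by
    by_contra h11
    have h1 : 11 * M0 ≤ u * M0 := mul_le_mul_of_nonneg_right (by omega) hM0pos.le
    have h2 : u * M0 ≤ u * (2 * M0 - u) := mul_le_mul_of_nonneg_left (by omega) (by omega)
    omega
  have hu1 : 1 ≤ u := by omega
  interval_cases u
  any_goals omega
  all_goals
    first
    | (have hmd : m ∣ 5 := ⟨4 * K + 3, by linarith⟩
       obtain ⟨hl1, hl2⟩ := dvd_bound (by norm_num) hmd
       interval_cases m <;> omega)
    | (have hmd : m ∣ 3 := ⟨2 * K + 1, by linarith⟩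
       obtain ⟨hl1, hl2⟩ := dvd_bound (by norm_num) hmd
       interval_cases m <;> omega)
    | (have hmd : m ∣ 21 := ⟨12 * K + 5, by linarith⟩
       obtain ⟨hl1, hl2⟩ := dvd_bound (by norm_num) hmd
       interval_cases m <;> omega)

theorem small_disc {g a : ℕ} {K p q : ℤ} (E : Eqs g a 1 K p q) (ha3 : 3 ≤ a) :
    Int.sqrt ((8 * K + 2) ^ 2 * ((a : ℤ) + 1) ^ 2 - 256 * a * K ^ 2)
      * Int.sqrt ((8 * K + 2) ^ 2 * ((a : ℤ) + 1) ^ 2 - 256 * a * K ^ 2)
      = (8 * K + 2) ^ 2 * ((a : ℤ) + 1) ^ 2 - 256 * a * K ^ 2 := by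
  have hD := E.disc (by omega) one_pos
  push_cast at hD
  rw [mul_one] at hD
  obtain ⟨e, he⟩ := exists_sq hD (by
    refine mul_ne_zero (mul_ne_zero (mul_ne_zero (by norm_num) E.K0) (by omega)) ?_
    omega)
  refine (Int.exists_mul_self _).1 ⟨e, ?_⟩
  rw [he]; ring

/-- The possibilities when `a` divides `60`. -/
theorem small_case {g a : ℕ} {K p q : ℤ} (E : Eqs g a 1 K p q) (h8 : 8 ∣ g)
    (ha : a = 3 ∨ a = 5 ∨ a = 15) : (a = 3 ∧ g = 2520) ∨ (a = 5 ∧ g = 7560) := by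
  have hs := small_disc E (by omega)
  obtain ⟨k, hk⟩ := h8
  have hE := E.order_eight hk
  obtain ⟨c1, c2⟩ := coprime_factors K
  have hd : (2 * K) ^ 2 ∣ (a : ℤ) * ((a : ℤ) + 1) ^ 2 := by
    refine (IsCoprime.pow_left (m := 2) (c1.mul_right c2)).dvd_of_dvd_mul_left ⟨k, ?_⟩
    push_cast at hE
    linear_combination -hE
  have hK0 := E.K0
  rcases ha with rfl | rfl | rfl
  · norm_num at hd hE
    have hb := Int.le_of_dvd (by norm_num) hd
    have : -3 ≤ K ∧ K ≤ 3 := ⟨by nlinarith, by nlinarith⟩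
    obtain ⟨l1, l2⟩ := this
    interval_cases K
    all_goals first
      | omega
      | (exfalso; revert hd; decide +kernel)
      | (exfalso; revert hs; decide +kernel)
      | (left; exact ⟨rfl, by omega⟩)
  · norm_num at hd hE
    have hb := Int.le_of_dvd (by norm_num) hd
    have : -7 ≤ K ∧ K ≤ 7 := ⟨by nlinarith, by nlinarith⟩
    obtain ⟨l1, l2⟩ := this
    interval_cases K
    all_goals first
      | omega
      | (exfalso; revert hd; decide +kernel)
      | (exfalso; revert hs; decide +kernel)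
      | (right; exact ⟨rfl, by omega⟩)
  · norm_num at hd hE
    have hb := Int.le_of_dvd (by norm_num) hd
    have : -31 ≤ K ∧ K ≤ 31 := ⟨by nlinarith, by nlinarith⟩
    obtain ⟨l1, l2⟩ := this
    interval_cases K
    all_goals first
      | omega
      | (exfalso; revert hd; decide +kernel)
      | (exfalso; revert hs; decide +kernel)

/-- One core of the centralizer is trivial: the group has order `2520`. -/
theorem one_sided {g a h N : ℕ} {K p q : ℤ} (E : Eqs g a 1 K p q) (ha : Odd a) (ha3 : 3 ≤ a)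
    (h8 : 8 ∣ g) (hh : h = 12 ∨ h = 60) (hg : g = 2 * a * h * N)
    (hc : a ∣ h ∨ (a : ℤ) ∣ (N : ℤ) - 1) : g = 2520 := by
  have hfive : ∀ h', a = 5 → g = 7560 → h = h' → (a ∣ h ∨ (a : ℤ) ∣ (N : ℤ) - 1) → False := by
    intro h' ha5 hg5 _ hc'
    subst ha5
    rcases hh with rfl | rfl
    · rcases hc' with hc' | hc'
      · norm_num at hc'
      · omega
    · omega
  rcases hc with hc | hc
  · have ha' : a = 3 ∨ a = 5 ∨ a = 15 := by
      have h60 : a ∣ 60 := by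
        rcases hh with rfl | rfl
        · exact hc.trans (by norm_num)
        · exact hc
      have := Nat.le_of_dvd (by norm_num) h60
      obtain ⟨l, rfl⟩ := ha
      have : l < 30 := by omega
      interval_cases l
      all_goals first
        | omega
        | (exfalso; revert h60; decide)
    rcases small_case E h8 ha' with ⟨-, r⟩ | ⟨r1, r2⟩
    · exact r
    · exact (hfive h r1 r2 rfl (Or.inl hc)).elim
  · obtain ⟨t, ht⟩ := hc
    obtain ⟨l, hl⟩ := ha
    have hco : IsCoprime (a : ℤ) K := by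
      refine ⟨1 + (l : ℤ) * (((a : ℤ) + 2) * ((8 * K + 1) * (8 * K + 2)) - 2 * h * K ^ 2 * t),
        -(l : ℤ) * (2 * h * K - 64 * K - 24), ?_⟩
      have ho := E.order
      rw [hg] at ho
      have hN : (N : ℤ) = 1 + a * t := by linarith
      have ha' : (a : ℤ) = 2 * l + 1 := by rw [hl]; push_cast; ring
      push_cast at ho
      rw [hN] at ho
      have ha0 : (a : ℤ) ≠ 0 := by omega
      have key : 2 * (h : ℤ) * (1 + a * t) * K ^ 2
          = ((a : ℤ) + 1) ^ 2 * ((8 * K + 1) * (8 * K + 2)) :=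
        mul_left_cancel₀ ha0 (by linear_combination ho)
      linear_combination ha' - (l : ℤ) * key
    have ho := E.order
    rcases coprime_case E ⟨l, hl⟩ ha3 h8 hco with ⟨rfl, rfl⟩ | ⟨rfl, rfl⟩ | ⟨rfl, rfl⟩
    · push_cast at ho; omega
    · exact (hfive h rfl (by push_cast at ho; omega) rfl (Or.inr ⟨t, ht⟩)).elim
    · exfalso
      push_cast at ho
      rcases hh with rfl | rfl <;> omega

end Cfsg.Agent.SmallCent.Arith
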