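import Cfsg.Agent.SmallCent.Setup
import Cfsg.Agent.SmallCent.Arith
import Cfsg.Agent.Brauer.KleinFour
import Cfsg.Agent.BlkChar.PModular

/-!
# The order formulas in the setting of a small centralizer
-/

set_option autoImplicit false
set_option linter.unusedSectionVars false
set_option linter.style.haveILetI false

open scoped ComplexConjugate
open Cfsg Subgroup

namespace Cfsg.Agent.SmallCent

universe u

variable {G : Type u} [Group G] [Fintype G]

namespace Loc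

variable {P : Sylow 2 G} {σ τ : G} {O : Subgroup G} (L : Loc P σ τ O)
include L

theorem cJ_zero : DihBlock.cJ σ τ 2 0 = 4 * Nat.card (core O τ) := by
  rw [DihBlock.cJ, pow_zero, one_mul, L.card_centPair]

theorem cJ_one : DihBlock.cJ σ τ 2 1 = 4 * Nat.card (core O (σ * τ)) := by
  rw [DihBlock.cJ, pow_one, L.swap.card_centPair]

theorem exists_eqs : ∃ K p q : ℤ, Arith.Eqs (Nat.card G) (Nat.card (core O τ))
    (Nat.card (core O (σ * τ))) K p q := by
  classical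
  haveI : Fact (Nat.Prime 2) := ⟨Nat.prime_two⟩
  haveI : NeZero (2 * 2) := ⟨by norm_num⟩
  obtain ⟨M, hM⟩ := BlkChar.exists_isPModular 2 Nat.prime_two
  have D := L.dih
  have hζ := Complex.isPrimitiveRoot_exp (2 * 2) (NeZero.ne _)
  set ζ : ℂ := Complex.exp (2 * Real.pi * Complex.I / ((2 * 2 : ℕ) : ℂ))
  obtain ⟨A, C₂, C₃, χ', α, e₂, e₃, hα, he₂, he₃, hinj, hAT, hC₂T, hC₃T, hAC₂, hAC₃, hC₂₃, hχ',
    hpb, hv, hreg⟩ := D.block_structure le_rfl hM hζ
  have hζ1 : ζ ^ 1 + (ζ ^ 1)⁻¹ = 0 := by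
    have h2 := DihBlock.primitiveRoot_pow_half two_pos hζ
    have hne : ζ ≠ 0 := hζ.ne_zero (by norm_num)
    rw [pow_one]
    field_simp
    linear_combination h2
  have hI : ∀ s : G, orderOf s = 2 → IsConj (σ ^ 2) s := L.one
  have hτ : IsConj (σ ^ 2) τ := hI τ (by simpa using D.orderOf_refl 0)
  have hστ : IsConj (σ ^ 2) (σ * τ) := hI _ (by simpa using D.orderOf_refl 1)
  have hApb : A ∈ DihBlock.pb M G := (hpb A).2 (Or.inr (Or.inl rfl))
  have hAv : ∀ l : ℕ, 0 < l → l < 2 * 2 → (A : G → ℂ) (σ ^ l) = α := fun l h0 h1 => (hv l h0 h1).1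
  obtain ⟨hne, hE1⟩ := D.one_class_equation le_rfl hM hτ hστ hApb hAT hα hAv
  have hdeg := fun χ : IrrCharacter G => (Char.irr_charDegree_spec χ.2).2
  have hpos := fun χ : IrrCharacter G => (Char.irr_charDegree_spec χ.2).1
  set x₁ := charDegree (A : G → ℂ) with hx₁
  set x₂ := charDegree (C₂ : G → ℂ) with hx₂
  set x₃ := charDegree (C₃ : G → ℂ) with hx₃
  let j₀ : Fin (2 - 1) := ⟨0, by norm_num⟩
  -- the degree relation
  have hrel : (e₂ : ℤ) * x₂ + e₃ * x₃ = -(1 + α * x₁) := by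
    have h := (hreg 1 (by rw [orderOf_one]; norm_num) j₀).1
    simp only [hdeg] at h
    have : (e₂ : ℂ) * x₂ + e₃ * x₃ = -(1 + (α : ℂ) * x₁) := by linear_combination h
    exact_mod_cast this
  -- the congruence
  obtain ⟨K, hK⟩ : ∃ K : ℤ, α * (x₁ : ℤ) = 8 * K + 1 := by
    obtain ⟨n, hn⟩ := Brauer.exists_sum_subgroup_eq_card_mul (Char.isCharacter_of_irr A.2)
      (P : Subgroup G)
    have hval : ∀ x : (P : Subgroup G), (A : G → ℂ) x
        = (α : ℂ) + if x = 1 then ((x₁ : ℂ) - α) else 0 := by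
      intro x
      split_ifs with h
      · rw [h]; simp [hdeg, hx₁]
      · rw [add_zero]
        have hrot : ∀ i < 2 * 2, σ ^ i ≠ 1 → (A : G → ℂ) (σ ^ i) = α := by
          intro i hi hne
          refine hAv i (Nat.pos_of_ne_zero fun e => hne (by rw [e, pow_zero])) hi
        rcases D.cases x.2 with ⟨i, hi, e⟩ | ⟨i, hi, e⟩
        · rw [e]
          exact hrot i hi fun e1 => h (Subtype.ext (e.trans e1))
        · obtain ⟨c, hc⟩ := isConj_iff.1 (hI _ (D.orderOf_refl i))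
          rw [e, ← hc, Char.irr_isClassFunction A.2 (σ ^ 2) c]
          exact hAv 2 two_pos (by norm_num)
    rw [Finset.sum_congr rfl (fun x _ => hval x), Finset.sum_add_distrib, Finset.sum_const,
      Finset.sum_ite_eq' Finset.univ (1 : (P : Subgroup G)), if_pos (Finset.mem_univ _),
      Finset.card_univ, ← Nat.card_eq_fintype_card, D.card, nsmul_eq_mul] at hn
    push_cast at hn
    have hn' : 8 * α + ((x₁ : ℤ) - α) = 8 * n := by
      have : (8 : ℂ) * α + ((x₁ : ℂ) - α) = 8 * n := by linear_combination hn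
      exact_mod_cast this
    rcases hα with rfl | rfl
    · exact ⟨n - 1, by linarith⟩
    · exact ⟨-n - 1, by linarith⟩
  have hα2 : α * α = 1 := by rcases hα with rfl | rfl <;> norm_num
  have hx₁K : (x₁ : ℤ) = α * (8 * K + 1) := by
    rw [← hK, ← mul_assoc, hα2, one_mul]
  have hX0 : (8 * K + 1 : ℤ) ≠ 0 := by omega
  set a := Nat.card (core O τ) with ha
  set b := Nat.card (core O (σ * τ)) with hb
  have ha0 : (0 : ℕ) < a := Nat.card_pos
  have hb0 : (0 : ℕ) < b := Nat.card_pos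
  have hc : Nat.card (centralizer ({σ ^ 2} : Set G)) = 8 * (a * b) := by
    rw [L.card_cent, L.card_O]
  refine ⟨K, e₂ * x₂, e₃ * x₃, ⟨?_, ?_, ?_, ?_⟩⟩
  · intro e
    refine hne ?_
    rw [hx₁K, e]; ring
  · rw [L.cJ_zero, L.cJ_one, hc, ← ha, ← hb] at hE1
    have hx₁Q : (x₁ : ℚ) = (α : ℚ) * (8 * K + 1) := by exact_mod_cast hx₁K
    have hαQ : (α : ℚ) * α = 1 := by exact_mod_cast hα2
    rw [hx₁Q, show (α : ℚ) * (8 * K + 1) - α = α * (8 * K) by ring,
      show 2 * ((α : ℚ) * (8 * K + 1)) * (α * (8 * K + 1) + α)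
        = α * α * (2 * ((8 * K + 1) * (8 * K + 2))) by ring, mul_pow, pow_two (α : ℚ), hαQ,
      one_mul, one_mul] at hE1
    have haQ : (a : ℚ) ≠ 0 := Nat.cast_ne_zero.2 ha0.ne'
    have hbQ : (b : ℚ) ≠ 0 := Nat.cast_ne_zero.2 hb0.ne'
    push_cast at hE1
    field_simp at hE1
    have : (Nat.card G : ℚ) * (K : ℚ) ^ 2
        = a * b * ((a : ℚ) + b) ^ 2 * ((8 * K + 1) * (8 * K + 2)) := by
      linear_combination hE1 / 16
    exact_mod_cast this
  · rw [hrel, hK]; ring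
  · have hq := D.order_equation hM hI (l := 1) one_pos (by norm_num)
    have hpb' : DihBlock.pb M G = {Char.trivialIrr G, A, C₂, C₃, χ' j₀} := by
      ext χ
      simp only [hpb χ, Finset.mem_insert, Finset.mem_singleton]
      refine or_congr_right (or_congr_right (or_congr_right (or_congr_right ⟨?_, fun e => ⟨_, e⟩⟩)))
      rintro ⟨j, rfl⟩
      rw [show j = j₀ from Fin.ext (by have := j.2; simp only [j₀]; omega)]
    have h10 := hχ' j₀
    rw [hpb', Finset.sum_insert (by simp [hAT.symm, hC₂T.symm, hC₃T.symm, h10.2.2.2.symm]),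
      Finset.sum_insert (by simp [hAC₂, hAC₃, h10.1.symm]),
      Finset.sum_insert (by simp [hC₂₃, h10.2.1.symm]),
      Finset.sum_insert (by simp [h10.2.2.1.symm]), Finset.sum_singleton] at hq
    obtain ⟨v1, v2, v3, v4⟩ := hv 1 one_pos (by norm_num)
    obtain ⟨w1, w2, w3, -⟩ := hv 2 two_pos (by norm_num)
    have hT1 : ∀ g, ((Char.trivialIrr G : IrrCharacter G) : G → ℂ) g = 1 := fun _ => rfl
    have hsq : ∀ e : ℤ, (e = 1 ∨ e = -1) → (e : ℂ) ^ 2 = 1 := by rintro e (rfl | rfl) <;> norm_num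
    simp only [hT1] at hq
    simp only [v1, v2, v3, v4 j₀, w1, w2, w3, hdeg, show ((j₀ : ℕ) + 1) * 1 = 1 from rfl,
      hζ1, mul_pow, hsq _ hα, hsq _ he₂, hsq _ he₃, map_one, map_mul, map_intCast, mul_zero,
      map_zero, zero_mul, zero_div, add_zero] at hq
    simp only [Finset.sum_range_succ, Finset.sum_range_zero, zero_add,
      show (2 * 2 - 1 : ℕ) = 3 from rfl, show (1 + 3 : ℕ) = 0 + 2 + 2 from rfl,
      show (2 + 3 : ℕ) = 1 + 2 + 2 from rfl, show (3 + 3 : ℕ) = 0 + 2 + 2 + 2 from rfl,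
      show (3 : ℕ) = 1 + 2 from rfl, D.cJ_add_two] at hq
    rw [L.cJ_zero, L.cJ_one, hc, ← ha, ← hb] at hq
    have haC : (a : ℂ) ≠ 0 := Nat.cast_ne_zero.2 ha0.ne'
    have hbC : (b : ℂ) ≠ 0 := Nat.cast_ne_zero.2 hb0.ne'
    have hX : (8 * (K : ℂ) + 1) ≠ 0 := by exact_mod_cast hX0
    have hp : ((e₂ : ℂ) * x₂) ≠ 0 := by
      refine mul_ne_zero ?_ (Nat.cast_ne_zero.2 (hpos C₂).ne')
      rcases he₂ with rfl | rfl <;> norm_num
    have hq0 : ((e₃ : ℂ) * x₃) ≠ 0 := by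
      refine mul_ne_zero ?_ (Nat.cast_ne_zero.2 (hpos C₃).ne')
      rcases he₃ with rfl | rfl <;> norm_num
    have hflip : ∀ (e : ℤ) (y : ℂ), (e = 1 ∨ e = -1) → (e : ℂ) / y = 1 / ((e : ℂ) * y) := by
      rintro e y (rfl | rfl) <;> simp [div_eq_mul_inv]
    norm_num [-Nat.card_eq_fintype_card] at hq
    rw [hflip α _ hα, hflip e₂ _ he₂, hflip e₃ _ he₃,
      show (α : ℂ) * x₁ = 8 * K + 1 by exact_mod_cast hK] at hq
    have hrelC : (e₂ : ℂ) * x₂ + e₃ * x₃ = -(1 + (8 * K + 1)) := by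
      rw [← show (α : ℂ) * x₁ = 8 * K + 1 by exact_mod_cast hK]; exact_mod_cast hrel
    have : (Nat.card G : ℂ) * (8 * K + 2) * ((e₂ : ℂ) * x₂ * (e₃ * x₃) - (8 * K + 1))
        = 256 * (a : ℂ) ^ 2 * (b : ℂ) ^ 2 * (8 * K + 1) * ((e₂ : ℂ) * x₂ * (e₃ * x₃)) := by
      generalize (e₂ : ℂ) * x₂ = p at hq hrelC hp ⊢
      generalize (e₃ : ℂ) * x₃ = q at hq hrelC hq0 ⊢
      field_simp at hq
      linear_combination hq / 8 - (Nat.card G : ℂ) * (8 * K + 1) * hrelC
    exact_mod_cast this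

end Loc

end Cfsg.Agent.SmallCent
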