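import Cfsg.Agent.SmallCent.Arith

/-!
# The finite search for two non-trivial centralizer cores
-/

set_option autoImplicit false

namespace Cfsg.Agent.SmallCent.Arith

open scoped Nat

/-- Indices `n ≤ 12` for which the pair `(a, b)` is possible. -/
def indices (a b : ℕ) : List ℕ :=
  [7, 8, 9, 10, 11, 12].filter fun n =>
    24 * n * a ^ 3 * b ≤ n ! && 4 * n * a ^ 2 ≤ 15 * (a + b) ^ 2 &&
      n ! % a == 0 && n ! % b == 0

/-- The test at a pair `(a, b)`, an index `n` and a candidate order `g`. -/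
def hit (a b n g : ℕ) : Bool := n ! % g == 0 && g % 16 == 8 && 24 * n * a ^ 3 * b ≤ g

/-- No candidate order for the pair `(a, b)` and `|K| = k`. -/
def goodK (a b k : ℕ) : Bool :=
  if 0 < k ∧ a * b * ((a + b) / 2) ^ 2 % (k * k) = 0 then
    (indices a b).all fun n =>
      !hit a b n (8 * (a * b * ((a + b) / 2) ^ 2 / (k * k) * ((8 * k + 1) * (4 * k + 1)))) &&
      !hit a b n (8 * (a * b * ((a + b) / 2) ^ 2 / (k * k) * ((8 * k - 1) * (4 * k - 1))))
  else true

/-- No candidate order for the pair `(a, b)`. -/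
def goodPair (a b : ℕ) : Bool :=
  if a % 2 = 1 ∧ b % 2 = 1 ∧ 3 ≤ b ∧ indices a b ≠ [] then
    (List.range (a * a + 1)).all fun k => goodK a b k
  else true

theorem search_small :
    ((List.range 48).all fun a => (List.range (a + 1)).all fun b => goodPair a b) = true := by
  decide +kernel

/-- The pair `(a, b)` is no exception for large indices. -/
def goodLarge (a b : ℕ) : Bool :=
  if b % 2 = 1 ∧ 3 ≤ b ∧ 4 * a ≤ 5 * b ∧ 15 ! % b = 0 then
    [13, 14, 15].all fun n => !hit a b n (90 * a * b * (a + b) ^ 2) || (a == 3 && b == 3)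
  else true

/-- All pairs with first entry `a` are no exceptions. -/
def goodA (a : ℕ) : Bool :=
  if a % 2 = 1 ∧ 15 ! % a = 0 then (List.range (a + 1)).all fun b => goodLarge a b else true

theorem search_large : ((List.range 270).all goodA) = true := by
  decide +kernel

theorem pow_four_le {a b n c d : ℕ} (hcd : c * a ≤ d * b)
    (hle : 24 * n * a ^ 3 * b ≤ n !) : 24 * n * c * a ^ 4 ≤ d * n ! := by
  calc 24 * n * c * a ^ 4 = 24 * n * a ^ 3 * (c * a) := by ring
    _ ≤ 24 * n * a ^ 3 * (d * b) := Nat.mul_le_mul_left _ hcd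
    _ = d * (24 * n * a ^ 3 * b) := by ring
    _ ≤ d * n ! := Nat.mul_le_mul_left _ hle

/-- Two non-trivial cores: only the order `29160` remains. -/
theorem two_sided {g a b n : ℕ} {K p q : ℤ} (E : Eqs g a b K p q) (ha : Odd a) (hb : Odd b)
    (hb3 : 3 ≤ b) (hba : b ≤ a) (h8 : 8 ∣ g) (hg : 24 * n * a ^ 3 * b ≤ g) (hn : g ∣ n !)
    (hag : a ∣ g) (hbg : b ∣ g) (hn0 : 0 < n) (h16 : ¬ 16 ∣ g) : g = 29160 := by
  have ha2 : a % 2 = 1 := Nat.odd_iff.1 ha
  have hb2 : b % 2 = 1 := Nat.odd_iff.1 hb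
  have hK0 := E.K0
  have hgn : g ≤ n ! := Nat.le_of_dvd (Nat.factorial_pos n) hn
  have hle : 24 * n * a ^ 3 * b ≤ n ! := hg.trans hgn
  set A : ℤ := (a : ℤ) with hA
  set B : ℤ := (b : ℤ) with hB
  have hA3 : (3 : ℤ) ≤ A := by rw [hA]; exact_mod_cast hb3.trans hba
  have hBA : B ≤ A := by rw [hA, hB]; exact_mod_cast hba
  have hB3 : (3 : ℤ) ≤ B := by rw [hB]; exact_mod_cast hb3
  -- the index inequality
  have hidx : 24 * (n : ℤ) * A ^ 2 * K ^ 2 ≤ (A + B) ^ 2 * ((8 * K + 1) * (8 * K + 2)) := by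
    have h1 : 24 * (n : ℤ) * A ^ 3 * B * K ^ 2 ≤ (g : ℤ) * K ^ 2 :=
      mul_le_mul_of_nonneg_right (by rw [hA, hB]; exact_mod_cast hg) (sq_nonneg K)
    rw [E.order] at h1
    have hAB : (0 : ℤ) < A * B := mul_pos (by omega) (by omega)
    refine le_of_mul_le_mul_left ?_ hAB
    linarith
  have hR : (8 * K + 1) * (8 * K + 2) ≤ 90 * K ^ 2 := by
    rcases lt_or_gt_of_ne hK0 with h | h
    · nlinarith
    · nlinarith
  have hK2 : 0 < K ^ 2 := by positivity
  have h15 : 4 * (n : ℤ) * A ^ 2 ≤ 15 * (A + B) ^ 2 := by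
    have h1 := mul_le_mul_of_nonneg_left hR (sq_nonneg (A + B))
    have h2 : 4 * (n : ℤ) * A ^ 2 * (6 * K ^ 2) ≤ 15 * (A + B) ^ 2 * (6 * K ^ 2) := by linarith
    exact le_of_mul_le_mul_right h2 (by positivity)
  have h15N : 4 * n * a ^ 2 ≤ 15 * (a + b) ^ 2 := by rw [hA, hB] at h15; exact_mod_cast h15
  have hn15 : n ≤ 15 := by
    have : (a + b) ^ 2 ≤ (2 * a) ^ 2 := Nat.pow_le_pow_left (by omega) 2
    have h : n * (4 * a ^ 2) ≤ 15 * (4 * a ^ 2) := by
      calc n * (4 * a ^ 2) = 4 * n * a ^ 2 := by ring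
        _ ≤ 15 * (a + b) ^ 2 := h15N
        _ ≤ 15 * (2 * a) ^ 2 := Nat.mul_le_mul_left _ this
        _ = 15 * (4 * a ^ 2) := by ring
    exact Nat.le_of_mul_le_mul_right h (Nat.mul_pos (by norm_num) (Nat.pow_pos (by omega)))
  have hn7 : 7 ≤ n := by
    by_contra hc
    have h1 : 3 ^ 3 * 3 ≤ a ^ 3 * b := Nat.mul_le_mul (Nat.pow_le_pow_left (by omega) 3) hb3
    have h2 : n ! ≤ 6 ! := Nat.factorial_le (by omega)
    have h3 : 24 * (3 ^ 3 * 3) ≤ 24 * n * a ^ 3 * b := by
      calc 24 * (3 ^ 3 * 3) ≤ 24 * (a ^ 3 * b) := Nat.mul_le_mul_left _ h1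
        _ ≤ 24 * n * (a ^ 3 * b) := Nat.mul_le_mul_right _ (Nat.le_mul_of_pos_right _ hn0)
        _ = _ := by ring
    norm_num [Nat.factorial] at h2 h3
    omega
  obtain ⟨k, hk⟩ := h8
  rcases le_or_gt n 12 with h12 | h13
  · exfalso
    -- bound `a`
    have h3b : 1 * a ≤ 3 * b := by
      by_contra hc
      have h1 : 28 * a ^ 2 ≤ 4 * n * a ^ 2 := Nat.mul_le_mul_right _ (by omega)
      nlinarith
    have ha48 : a < 48 := by
      have h1 := pow_four_le h3b hle
      have h2 : (n - 1) ! ≤ 11 ! := Nat.factorial_le (by omega)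
      have h3 : n * (24 * a ^ 4) ≤ n * (3 * (n - 1) !) := by
        calc n * (24 * a ^ 4) = 24 * n * 1 * a ^ 4 := by ring
          _ ≤ 3 * n ! := h1
          _ = 3 * (n * (n - 1) !) := by rw [Nat.mul_factorial_pred (by omega)]
          _ = _ := by ring
      have h4 := Nat.le_of_mul_le_mul_left h3 hn0
      by_contra hc
      have h5 : 48 ^ 4 ≤ a ^ 4 := Nat.pow_le_pow_left (by omega) 4
      norm_num [Nat.factorial] at h2 h5
      omega
    have hmem : n ∈ indices a b := by
      simp only [indices, List.mem_filter, Bool.and_eq_true, decide_eq_true_eq, beq_iff_eq]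
      refine ⟨?_, ⟨⟨hle, h15N⟩, Nat.mod_eq_zero_of_dvd (hag.trans hn)⟩,
        Nat.mod_eq_zero_of_dvd (hbg.trans hn)⟩
      interval_cases n <;> simp
    have hne : indices a b ≠ [] := List.ne_nil_of_mem hmem
    -- the equation for `g / 8`
    obtain ⟨t, ht⟩ : ∃ t, a + b = 2 * t := ⟨(a + b) / 2, by omega⟩
    have hdiv : (a + b) / 2 = t := by omega
    have hE := E.order_eight hk
    have hst : A + B = 2 * (t : ℤ) := by rw [hA, hB]; exact_mod_cast ht
    rw [hst] at hE
    have hkey : (k : ℤ) * K ^ 2 = A * B * (t : ℤ) ^ 2 * ((8 * K + 1) * (4 * K + 1)) := by linarith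
    have hdK : K ^ 2 ∣ A * B * (t : ℤ) ^ 2 := by
      obtain ⟨c1, c2⟩ := coprime_factors K
      have c : IsCoprime (K ^ 2) ((8 * K + 1) * (4 * K + 1)) :=
        ((c1.of_mul_left_right).mul_right c2.of_mul_left_right).pow_left
      exact c.dvd_of_dvd_mul_right ⟨k, by rw [← hkey]; ring⟩
    obtain ⟨j, hj⟩ : ∃ j : ℕ, j = K.natAbs := ⟨_, rfl⟩
    have hj0 : 0 < j := by omega
    have hjd : j * j ∣ a * b * t ^ 2 := by
      have h := Int.natAbs_dvd_natAbs.2 hdK
      rw [Int.natAbs_pow, ← hj, hA, hB, ← pow_two] at *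
      simpa [Int.natAbs_mul, Int.natAbs_pow] using h
    have hjb : j < a * a + 1 := by
      have h1 : j * j ≤ a * b * t ^ 2 := Nat.le_of_dvd (Nat.mul_pos (Nat.mul_pos (by omega) (by omega)) (Nat.pow_pos (by omega))) hjd
      have h2 : a * b * t ^ 2 ≤ a * a * a ^ 2 :=
        Nat.mul_le_mul (Nat.mul_le_mul_left _ hba) (Nat.pow_le_pow_left (by omega) 2)
      nlinarith
    obtain ⟨c, hc⟩ := hjd
    have hgood := List.all_eq_true.1 (List.all_eq_true.1 (List.all_eq_true.1 search_small a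
      (List.mem_range.2 ha48)) b (List.mem_range.2 (by omega)) |> fun h => by
        simpa [goodPair, ha2, hb2, hb3, hne] using h) j (List.mem_range.2 hjb)
    rw [goodK, if_pos ⟨hj0, by rw [hdiv, hc]; exact Nat.mul_mod_right _ _⟩] at hgood
    have hh := List.all_eq_true.1 hgood n hmem
    simp only [Bool.and_eq_true, Bool.not_eq_true', hit, Bool.and_eq_false_iff, beq_eq_false_iff_ne,
      decide_eq_false_iff_not] at hh
    obtain ⟨hpos, hneg⟩ := hh
    have hcdiv : a * b * ((a + b) / 2) ^ 2 / (j * j) = c := by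
      rw [hdiv, hc, Nat.mul_div_cancel_left _ (by positivity)]
    have hcZ : A * B * (t : ℤ) ^ 2 = (j : ℤ) * j * c := by rw [hA, hB]; exact_mod_cast hc
    rw [hcdiv] at hpos hneg
    rcases le_or_gt 0 K with h | h
    · have hKj : K = (j : ℤ) := by omega
      have hk' : k = c * ((8 * j + 1) * (4 * j + 1)) := by
        have : (k : ℤ) * ((j : ℤ) * j)
            = (c * ((8 * j + 1) * (4 * j + 1)) : ℤ) * ((j : ℤ) * j) := by
          rw [hcZ, hKj] at hkey; linear_combination hkey
        exact_mod_cast mul_right_cancel₀ (mul_ne_zero (by omega) (by omega)) this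
      rw [← hk', ← hk] at hpos
      rcases hpos with (h' | h') | h'
      · exact h' (Nat.mod_eq_zero_of_dvd hn)
      · omega
      · exact h' hg
    · have hKj : K = -(j : ℤ) := by omega
      have hk' : k = c * ((8 * j - 1) * (4 * j - 1)) := by
        have : (k : ℤ) * ((j : ℤ) * j)
            = ((c * ((8 * j - 1) * (4 * j - 1)) : ℕ) : ℤ) * ((j : ℤ) * j) := by
          push_cast [Nat.cast_sub (show 1 ≤ 8 * j by omega), Nat.cast_sub (show 1 ≤ 4 * j by omega)]
          rw [hcZ, hKj] at hkey; linear_combination hkey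
        exact_mod_cast mul_right_cancel₀ (mul_ne_zero (by omega) (by omega)) this
      rw [← hk', ← hk] at hneg
      rcases hneg with (h' | h') | h'
      · exact h' (Nat.mod_eq_zero_of_dvd hn)
      · omega
      · exact h' hg
  · -- here `K = 1`
    have hK1 : K = 1 := by
      have h1 : 24 * 13 * A ^ 2 * K ^ 2 ≤ 24 * (n : ℤ) * A ^ 2 * K ^ 2 := by
        refine mul_le_mul_of_nonneg_right (mul_le_mul_of_nonneg_right ?_ (sq_nonneg A)) (sq_nonneg K)
        omega
      have hX : 0 < (8 * K + 1) * (8 * K + 2) := by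
        rcases lt_or_gt_of_ne hK0 with h | h
        · exact mul_pos_of_neg_of_neg (by omega) (by omega)
        · exact mul_pos (by omega) (by omega)
      have h2 : (A + B) ^ 2 ≤ 4 * A ^ 2 := by
        rw [show 4 * A ^ 2 = (2 * A) ^ 2 by ring]; exact pow_le_pow_left₀ (by omega) (by omega) 2
      have h3 := mul_le_mul_of_nonneg_right h2 hX.le
      have h4 : 78 * K ^ 2 ≤ (8 * K + 1) * (8 * K + 2) :=
        le_of_mul_le_mul_left (a := 4 * A ^ 2) (by linarith only [h1, hidx, h3])
          (mul_pos (by norm_num) (pow_pos (by omega) 2))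
      rcases lt_or_gt_of_ne hK0 with h | h <;> nlinarith only [h, h4]
    have h90 : g = 90 * a * b * (a + b) ^ 2 := by
      have ho := E.order
      rw [hK1] at ho
      norm_num at ho
      have : (g : ℤ) = ((90 * a * b * (a + b) ^ 2 : ℕ) : ℤ) := by push_cast; rw [ho]; ring
      exact_mod_cast this
    have h45 : 4 * a ≤ 5 * b := by
      by_contra hc
      have h1 : 52 * a ^ 2 ≤ 4 * n * a ^ 2 := Nat.mul_le_mul_right _ (by omega)
      nlinarith
    have ha270 : a < 270 := by
      have h1 := pow_four_le h45 hle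
      have h2 : (n - 1) ! ≤ 14 ! := Nat.factorial_le (by omega)
      have h3 : n * (96 * a ^ 4) ≤ n * (5 * (n - 1) !) := by
        calc n * (96 * a ^ 4) = 24 * n * 4 * a ^ 4 := by ring
          _ ≤ 5 * n ! := h1
          _ = 5 * (n * (n - 1) !) := by rw [Nat.mul_factorial_pred (by omega)]
          _ = _ := by ring
      have h4 := Nat.le_of_mul_le_mul_left h3 hn0
      by_contra hc
      have h5 : 270 ^ 4 ≤ a ^ 4 := Nat.pow_le_pow_left (by omega) 4
      norm_num [Nat.factorial] at h2 h5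
      omega
    have h15f : n ! ∣ 15 ! := Nat.factorial_dvd_factorial hn15
    have hA' := List.all_eq_true.1 search_large a (List.mem_range.2 ha270)
    rw [goodA, if_pos ⟨ha2, Nat.mod_eq_zero_of_dvd ((hag.trans hn).trans h15f)⟩] at hA'
    have hB' := List.all_eq_true.1 hA' b (List.mem_range.2 (by omega))
    rw [goodLarge, if_pos ⟨hb2, hb3, h45, Nat.mod_eq_zero_of_dvd ((hbg.trans hn).trans h15f)⟩] at hB'
    have hN := List.all_eq_true.1 hB' n (by interval_cases n <;> simp)
    have hhit : hit a b n (90 * a * b * (a + b) ^ 2) = true := by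
      simp only [hit, Bool.and_eq_true, beq_iff_eq, decide_eq_true_eq]
      exact ⟨⟨Nat.mod_eq_zero_of_dvd (h90 ▸ hn), by rw [← h90]; omega⟩, h90 ▸ hg⟩
    rw [hhit] at hN
    simp only [Bool.not_true, Bool.false_or, Bool.and_eq_true, beq_iff_eq] at hN
    obtain ⟨rfl, rfl⟩ := hN
    norm_num at h90
    exact h90

end Cfsg.Agent.SmallCent.Arith
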