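import Cfsg.Agent.SmallCent.TI
import Cfsg.Agent.SmallCent.Search
import Cfsg.Agent.Invol.BrauerFowler
import Cfsg.Agent.SmallGroups.Basic
import Cfsg.Agent.S0985

/-!
# Two non-trivial cores are impossible in a simple group
-/

set_option autoImplicit false
set_option linter.unusedSectionVars false
set_option linter.style.haveILetI false

open Subgroup
open scoped Nat

namespace Cfsg.Agent.SmallCent

universe u

variable {G : Type u} [Group G] [Fintype G]

/-- There is no simple group of order `29160`. -/
theorem card_ne_29160 [IsSimpleGroup G] : Nat.card G ≠ 29160 := by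
  classical
  intro h
  haveI : Fact (Nat.Prime 3) := ⟨by norm_num⟩
  have hG : ¬ IsMulCommutative G := SmallGroups.not_isMulCommutative (by rw [h]; norm_num)
  have hno : ∀ H : Subgroup G, H ≠ ⊤ → ¬ H.index ∣ 8 ∧ ¬ (H.index ≤ 10) := by
    intro H hH
    have hd := Invol.card_dvd_factorial_index hH
    rw [h] at hd
    have : ¬ H.index ≤ 10 := fun hle =>
      absurd (hd.trans (Nat.factorial_dvd_factorial hle)) (by decide)
    exact ⟨fun hd' => this ((Nat.le_of_dvd (by norm_num) hd').trans (by norm_num)), this⟩
  have hP6 : ∀ S : Sylow 3 G, Nat.card (S : Subgroup G) = 3 ^ 6 := fun S =>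
    SmallGroups.card_sylow_subgroup (m := 40) (a := 6) (by rw [h]; norm_num) (by norm_num) S
  have hn3 : Nat.card (Sylow 3 G) ∣ 40 := SmallGroups.card_sylow_dvd (m := 40) (a := 6)
    (by rw [h]; norm_num)
  have hmod := card_sylow_modEq_one 3 G
  have hne1 := SmallGroups.one_lt_card_sylow hG (p := 3) (by rw [h]; norm_num)
  obtain ⟨P₀⟩ : Nonempty (Sylow 3 G) := inferInstance
  have hbig : 10 < Nat.card (Sylow 3 G) := by
    rw [Sylow.card_eq_index_normalizer P₀]
    refine not_le.1 (hno _ fun e => ?_).2
    rw [Sylow.card_eq_index_normalizer P₀, e, index_top] at hne1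
    omega
  have h40 : Nat.card (Sylow 3 G) = 40 := by
    have := Nat.le_of_dvd (by norm_num) hn3
    unfold Nat.ModEq at hmod
    interval_cases Nat.card (Sylow 3 G) <;> omega
  obtain ⟨P, R, hPR, hidx⟩ := S0985.result (G := G) 3 2 (by rw [h40]; decide)
  set D := (P : Subgroup G) ⊓ R with hD
  set i := ((R : Subgroup G).subgroupOf (P : Subgroup G)).index with hi
  have hmul : Nat.card D * i = 3 ^ 6 := by
    rw [← hP6 P, hi, ← Subgroup.card_mul_index ((R : Subgroup G).subgroupOf (P : Subgroup G)),
      ← inf_subgroupOf_left, Nat.card_congr (subgroupOfEquivOfLe inf_le_left).toEquiv]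
  have hi1 : i ≠ 1 := fun e => hPR (Sylow.ext (eq_of_le_of_card_ge
    (subgroupOf_eq_top.1 (index_eq_one.1 e)) (by rw [hP6 P, hP6 R])))
  have hi3 : i = 3 := by
    norm_num at hidx
    have : i ∣ 3 ^ 6 := ⟨_, by rw [← hmul, mul_comm]⟩
    rcases (show i = 0 ∨ i = 1 ∨ i = 2 ∨ i = 3 by omega) with e | e | e | e
    · rw [e] at this; norm_num at this
    · exact absurd e hi1
    · rw [e] at this; norm_num at this
    · exact e
  have hDc : Nat.card D = 3 ^ 5 := by rw [hi3] at hmul; omega
  have hnorm : ∀ S : Sylow 3 G, D ≤ (S : Subgroup G) →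
      (S : Subgroup G) ≤ normalizer (D : Set G) := by
    intro S hS
    have : (D.subgroupOf (S : Subgroup G)).Normal := by
      refine normal_of_index_eq_minFac_card ?_
      have hi' : (D.subgroupOf (S : Subgroup G)).index = 3 := by
        have hm := (D.subgroupOf (S : Subgroup G)).card_mul_index
        rw [Nat.card_congr (subgroupOfEquivOfLe hS).toEquiv, hDc, hP6 S] at hm
        omega
      rw [hi', hP6 S]; norm_num
    exact (normal_subgroupOf_iff_le_normalizer hS).1 this
  set N := normalizer (D : Set G) with hN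
  have hPN := hnorm P inf_le_left
  have hRN := hnorm R inf_le_right
  have hNtop : N ≠ ⊤ := by
    intro e
    have hDn : D.Normal := normalizer_eq_top_iff.1 e
    rcases hDn.eq_bot_or_eq_top with e' | e'
    · rw [e', card_bot] at hDc; norm_num at hDc
    · rw [e', card_top, h] at hDc; norm_num at hDc
  have hne : P.subtype hPN ≠ R.subtype hRN := fun e => hPR (Sylow.subtype_injective e)
  have hfour : 4 ≤ Nat.card (Sylow 3 N) := by
    have h1 : 1 < Nat.card (Sylow 3 N) :=
      Finite.one_lt_card_iff_nontrivial.2 ⟨⟨_, _, hne⟩⟩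
    have := card_sylow_modEq_one 3 N
    unfold Nat.ModEq at this
    omega
  have hdvd := Sylow.card_dvd_index (P.subtype hPN)
  have hidxN : (P.subtype hPN : Subgroup N).index * N.index = 40 := by
    rw [Sylow.coe_subtype, ← relIndex, Subgroup.relIndex_mul_index hPN]
    have := (P : Subgroup G).card_mul_index
    rw [hP6 P, h] at this
    omega
  have h4 : 4 ≤ (P.subtype hPN : Subgroup N).index :=
    hfour.trans (Nat.le_of_dvd (Nat.pos_of_ne_zero (by
      intro e; rw [e, zero_mul] at hidxN; omega)) hdvd)
  exact (hno N hNtop).2 (by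
    have := Nat.mul_le_mul_right N.index h4
    omega)

namespace Loc

variable {P : Sylow 2 G} {σ τ : G} {O : Subgroup G} (L : Loc P σ τ O)
include L

theorem not_two_sided [IsSimpleGroup G] (hb : 3 ≤ Nat.card (core O (σ * τ)))
    (hba : Nat.card (core O (σ * τ)) ≤ Nat.card (core O τ)) : False := by
  classical
  haveI : Fact (Nat.Prime 2) := ⟨Nat.prime_two⟩
  obtain ⟨x, hx, hx1⟩ := L.swap.exists_ne_of_card (by omega)
  have hlow := L.swap.local_lower hx hx1 le_rfl (L.swap.cent_le hx)
  rw [L.core_swap_swap] at hlow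
  set B := core O (σ * τ) with hB
  set N := normalizer (B : Set G) with hN
  set H := centralizer (B : Set G) with hH
  have hNc : Nat.card N = 2 * Nat.card H := by
    rw [← L.swap.index_two hx hx1, relIndex,
      ← Nat.card_congr (subgroupOfEquivOfLe (centralizer_le_normalizer _)).toEquiv, mul_comm,
      card_mul_index]
  have hPc : Nat.card (P : Subgroup G) = 8 := L.dih.card
  have h8 : 8 ∣ Nat.card G := hPc ▸ card_subgroup_dvd_card _
  have hBodd : Odd (Nat.card B) := L.swap.odd_core
  have hNtop : N ≠ ⊤ := by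
    intro e
    have hBn : B.Normal := normalizer_eq_top_iff.1 e
    rcases hBn.eq_bot_or_eq_top with e' | e'
    · rw [e', card_bot] at hb; omega
    · rw [e', card_top] at hBodd
      exact Nat.not_even_iff_odd.2 hBodd (even_iff_two_dvd.2 ((by norm_num : 2 ∣ 8).trans h8))
  obtain ⟨K, p, q, E⟩ := L.exists_eqs
  refine card_ne_29160 (G := G) (Arith.two_sided E L.odd_core hBodd hb hba h8 (n := N.index) ?_
    (Invol.card_dvd_factorial_index hNtop) (card_subgroup_dvd_card _) (card_subgroup_dvd_card _)
    (Nat.pos_of_ne_zero index_ne_zero_of_finite) ?_)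
  · rw [← N.card_mul_index, hNc]
    calc 24 * N.index * Nat.card (core O τ) ^ 3 * Nat.card B
        = 2 * (12 * Nat.card B * Nat.card (core O τ) ^ 3) * N.index := by ring
      _ ≤ 2 * Nat.card H * N.index := by gcongr
  · intro h16
    refine P.not_dvd_index ?_
    have hm := (P : Subgroup G).card_mul_index
    rw [hPc] at hm
    omega

end Loc

end Cfsg.Agent.SmallCent
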