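import Cfsg.Agent.DihBlock.Klein
import Cfsg.Agent.BlkChar.PModular
import Cfsg.Agent.S0948
import Cfsg.Agent.TwoFusion.DihedralFusion

/-!
# Groups with a four-group Sylow 2-subgroup and one class of involutions
-/

set_option autoImplicit false
set_option linter.unusedSectionVars false

open Subgroup

namespace Cfsg.Agent.SmallCent

universe u

variable {K : Type u} [Group K] [Fintype K]

/-- The order equation, with bounds on the character sum. -/
theorem klein_sum (P : Sylow 2 K) (hP : IsKleinFour (P : Subgroup K))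
    (hone : ∀ s t : K, orderOf s = 2 → orderOf t = 2 → IsConj s t) {z : K}
    (hz : z ∈ (P : Subgroup K)) (hzo : orderOf z = 2) :
    ∃ S : ℚ, 4 / 9 ≤ S ∧ S ≤ 8 / 3 ∧ (Nat.card K : ℚ) * S
      = 8 * (Nat.card (centralizer ({z} : Set K)) : ℚ) ^ 3
        / (Nat.card (centralizer ((P : Subgroup K) : Set K)) : ℚ) ^ 2 := by
  classical
  haveI : Fact (Nat.Prime 2) := ⟨Nat.prime_two⟩
  haveI := hP
  have hP4 : Nat.card (P : Subgroup K) = 4 := IsKleinFour.card_four
  have h4 := TwoFusion.isFour_of_isKleinFour hP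
  obtain ⟨τ, hτ, hτz⟩ : ∃ τ ∈ (P : Subgroup K), τ ∉ zpowers z := by
    by_contra hcon
    push Not at hcon
    have := card_le_of_le hcon
    rw [hP4, Nat.card_zpowers, hzo] at this
    omega
  have D : DihBlock.Dih P z τ 1 :=
    { mem_σ := hz
      mem_τ := hτ
      pow2 := ⟨0, rfl⟩
      order := by rw [hzo]
      inv := by
        rw [h4.comm hτ hz, mul_inv_cancel_right, inv_eq_of_mul_eq_one_right (h4.2 z hz)]
      sq := h4.2 τ hτ
      notMem := hτz
      card := by rw [hP4] }
  obtain ⟨M, hM⟩ := BlkChar.exists_isPModular 2 Nat.prime_two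
  obtain ⟨χa, χb, χc, ε, hε, ha1, hb1, hab, hac, hbc, hB, hval, hma, hmb, hmc, -⟩ :=
    S0948.result M hM P hP hone
  obtain ⟨va, vb, vc⟩ := hval z hzo
  have hc1 : (χc : K → ℂ) ≠ fun _ => 1 := fun e => by
    rw [e] at vc; norm_num at vc
  obtain ⟨hlin, heq⟩ := DihBlock.klein_equation hM D (fun s hs => hone z s hzo hs) hB
    ⟨ha1, hb1, hc1, hab, hac, hbc⟩ (ε₁ := 1) (ε₂ := ε) (ε₃ := -1) ⟨Or.inl rfl, hε, Or.inr rfl⟩
    ⟨by simpa using va, vb, by simpa using vc⟩
  have pa := (Char.irr_charDegree_spec χa.2).1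
  have pb := (Char.irr_charDegree_spec χb.2).1
  have pc := (Char.irr_charDegree_spec χc.2).1
  refine ⟨_, ?_, ?_, heq⟩
  · generalize Cfsg.charDegree (χa : K → ℂ) = a at *
    generalize Cfsg.charDegree (χb : K → ℂ) = b at *
    generalize Cfsg.charDegree (χc : K → ℂ) = c at *
    have ia : (0 : ℚ) ≤ 1 / a := by positivity
    have inv_le : ∀ x k : ℕ, 0 < k → k ≤ x → (1 : ℚ) / x ≤ 1 / k := fun x k h0 h => by
      gcongr
    rcases hε with rfl | rfl
    · have i3 := inv_le c 3 (by norm_num) (by omega)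
      have ib : (0 : ℚ) ≤ 1 / b := by positivity
      push_cast at i3 ⊢
      simp only [neg_div, ← sub_eq_add_neg] at *
      linarith
    · push_cast
      simp only [neg_div, ← sub_eq_add_neg]
      rcases (show (b = 3 ∧ c = 3 ∧ a = 5) ∨ 7 ≤ b ∨ 7 ≤ c by omega) with ⟨rfl, rfl, rfl⟩ | h | h
      · norm_num
      · have i7 := inv_le b 7 (by norm_num) h
        have i3 := inv_le c 3 (by norm_num) (by omega)
        push_cast at i7 i3
        linarith
      · have i7 := inv_le c 7 (by norm_num) h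
        have i3 := inv_le b 3 (by norm_num) (by omega)
        push_cast at i7 i3
        linarith
  · generalize Cfsg.charDegree (χa : K → ℂ) = a at *
    generalize Cfsg.charDegree (χb : K → ℂ) = b at *
    generalize Cfsg.charDegree (χc : K → ℂ) = c at *
    have ic : (0 : ℚ) ≤ 1 / c := by positivity
    have inv_le : ∀ x k : ℕ, 0 < k → k ≤ x → (1 : ℚ) / x ≤ 1 / k := fun x k h0 h => by
      gcongr
    have ia := inv_le a 1 one_pos pa
    rcases hε with rfl | rfl
    · push_cast
      simp only [neg_div, ← sub_eq_add_neg]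
      rcases (show (a = 1 ∧ b = 1 ∧ c = 3) ∨ 5 ≤ a ∨ 5 ≤ b by omega) with ⟨rfl, rfl, rfl⟩ | h | h
      · norm_num
      · have i5 := inv_le a 5 (by norm_num) h
        have i1 := inv_le b 1 one_pos pb
        push_cast at i5 i1
        linarith
      · have i5 := inv_le b 5 (by norm_num) h
        have i1 := inv_le a 1 one_pos pa
        push_cast at i5 i1
        linarith
    · have ib : (0 : ℚ) ≤ 1 / b := by positivity
      push_cast at ia ⊢
      simp only [neg_div, ← sub_eq_add_neg]
      linarith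

theorem klein_lower (P : Sylow 2 K) (hP : IsKleinFour (P : Subgroup K))
    (hone : ∀ s t : K, orderOf s = 2 → orderOf t = 2 → IsConj s t) {z : K}
    (hz : z ∈ (P : Subgroup K)) (hzo : orderOf z = 2) :
    3 * Nat.card (centralizer ({z} : Set K)) ^ 3
      ≤ Nat.card K * Nat.card (centralizer ((P : Subgroup K) : Set K)) ^ 2 := by
  obtain ⟨S, -, hS, heq⟩ := klein_sum P hP hone hz hzo
  have hp : (0 : ℚ) < (Nat.card (centralizer ((P : Subgroup K) : Set K)) : ℚ) ^ 2 :=
    pow_pos (Nat.cast_pos.2 Nat.card_pos) 2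
  rw [eq_div_iff hp.ne'] at heq
  have h1 := mul_le_mul_of_nonneg_left hS
    (mul_nonneg (Nat.cast_nonneg (α := ℚ) (Nat.card K)) hp.le)
  have h2 : (3 : ℚ) * (Nat.card (centralizer ({z} : Set K)) : ℚ) ^ 3
      ≤ (Nat.card K : ℚ) * (Nat.card (centralizer ((P : Subgroup K) : Set K)) : ℚ) ^ 2 := by
    linarith
  exact_mod_cast h2

/-- A centralizer of order `4 a` containing an abelian odd subgroup of order `a` centralizing the
four-group: that subgroup is normal and the index is `12` or `60`. -/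
theorem klein_core (P : Sylow 2 K) (hP : IsKleinFour (P : Subgroup K))
    (hone : ∀ s t : K, orderOf s = 2 → orderOf t = 2 → IsConj s t) {z : K}
    (hz : z ∈ (P : Subgroup K)) (hzo : orderOf z = 2) (A : Subgroup K) (hA : Odd (Nat.card A))
    (hzc : Nat.card (centralizer ({z} : Set K)) = 4 * Nat.card A)
    (hAP : A ≤ centralizer ((P : Subgroup K) : Set K)) :
    A.Normal ∧ ∃ h, (h = 12 ∨ h = 60) ∧ Nat.card K = h * Nat.card A := by
  classical
  haveI : Fact (Nat.Prime 2) := ⟨Nat.prime_two⟩
  haveI := hP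
  have hP4 : Nat.card (P : Subgroup K) = 4 := IsKleinFour.card_four
  have h4 := TwoFusion.isFour_of_isKleinFour hP
  set C := centralizer ((P : Subgroup K) : Set K) with hC
  set a := Nat.card A with hadef
  have ha0 : 0 < a := hA.pos
  have hPC : (P : Subgroup K) ≤ C := fun x hx => by
    rw [hC, mem_centralizer_iff]; exact fun y hy => h4.comm hy hx
  have hcop : Nat.Coprime 4 a :=
    (Nat.Coprime.pow_left 2 (Nat.coprime_two_left.2 hA) : Nat.Coprime (2 ^ 2) a)
  have hCz : C ≤ centralizer ({z} : Set K) := centralizer_le (Set.singleton_subset_iff.2 hz)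
  have hCcard : Nat.card C = 4 * a := by
    refine le_antisymm ((card_le_of_le hCz).trans hzc.le) (Nat.le_of_dvd Nat.card_pos ?_)
    exact hcop.mul_dvd_of_dvd_of_dvd (hP4 ▸ card_dvd_of_le hPC) (card_dvd_of_le hAP)
  have hCeq : ∀ u ∈ (P : Subgroup K), u ≠ 1 → centralizer ({u} : Set K) = C := by
    intro u hu hu1
    have huo : orderOf u = 2 := orderOf_eq_prime (by rw [pow_two]; exact h4.2 u hu) hu1
    obtain ⟨g, hg⟩ := isConj_iff.1 (hone z u hzo huo)
    refine (eq_of_le_of_card_ge (centralizer_le (Set.singleton_subset_iff.2 hu)) ?_).symm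
    rw [hCcard, ← hzc]
    refine le_of_eq (Nat.card_congr
      { toFun := fun c => ⟨g⁻¹ * c * g, mem_centralizer_singleton_iff.2 ?_⟩
        invFun := fun c => ⟨g * c * g⁻¹, mem_centralizer_singleton_iff.2 ?_⟩
        left_inv := fun c => Subtype.ext (by group)
        right_inv := fun c => Subtype.ext (by group) })
    · have h1 := mem_centralizer_singleton_iff.1 c.2
      calc g⁻¹ * c * g * z = g⁻¹ * (c * (g * z * g⁻¹)) * g := by group
        _ = g⁻¹ * ((g * z * g⁻¹) * c) * g := by rw [hg, h1]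
        _ = z * (g⁻¹ * c * g) := by group
    · have h1 := mem_centralizer_singleton_iff.1 c.2
      rw [← hg]
      calc g * c * g⁻¹ * (g * z * g⁻¹) = g * ((c : K) * z) * g⁻¹ := by group
        _ = g * (z * c) * g⁻¹ := by rw [h1]
        _ = g * z * g⁻¹ * (g * c * g⁻¹) := by group
  -- odd elements of `C` lie in `A`
  have hmem : ∀ x ∈ C, Odd (orderOf x) → x ∈ A := by
    intro x hx ho
    have hsup : A ⊔ (P : Subgroup K) = C :=
      eq_of_le_of_card_ge (sup_le hAP hPC) (by
        rw [hCcard]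
        exact Nat.le_of_dvd Nat.card_pos (hcop.mul_dvd_of_dvd_of_dvd
          (hP4 ▸ card_dvd_of_le le_sup_right) (card_dvd_of_le le_sup_left)))
    haveI hn : (A.subgroupOf C).Normal := by
      refine normal_subgroupOf_iff hAP |>.2 fun y c hy hc => ?_
      rw [← hsup] at hc
      refine closure_induction (p := fun c _ => ∀ y ∈ A, c * y * c⁻¹ ∈ A) ?_ ?_ ?_ ?_
        (by rwa [sup_eq_closure] at hc) y hy
      · rintro c (hc | hc) y hy
        · exact mul_mem (mul_mem hc hy) (inv_mem hc)
        · rw [(mem_centralizer_iff.1 (hAP hy) c hc), mul_inv_cancel_right]; exact hy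
      · intro y hy; simpa using hy
      · intro c d _ _ ihc ihd y hy
        simpa [mul_assoc] using ihc _ (ihd y hy)
      · intro c _ ih y hy
        let f : A → A := fun w => ⟨c * w * c⁻¹, ih w w.2⟩
        have hf : Function.Injective f := fun w w' e => Subtype.ext
          (mul_left_cancel (mul_right_cancel (congrArg Subtype.val e)))
        obtain ⟨w, hw⟩ := (Finite.injective_iff_surjective.1 hf) ⟨y, hy⟩
        have e : c * (w : K) * c⁻¹ = y := congrArg Subtype.val hw
        rw [← e]; simpa [mul_assoc] using w.2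
    have hidx : (A.subgroupOf C).index = 4 := by
      have h := (A.subgroupOf C).index_mul_card
      rw [Nat.card_congr (subgroupOfEquivOfLe hAP).toEquiv, hCcard] at h
      exact Nat.eq_of_mul_eq_mul_right ha0 h
    have h := Subgroup.pow_index_mem (A.subgroupOf C) ⟨x, hx⟩
    rw [hidx, mem_subgroupOf] at h
    obtain ⟨m, hm⟩ := exists_pow_eq_self_of_coprime (x := x) (n := 4)
      ((Nat.Coprime.pow_left 2 (Nat.coprime_two_left.2 ho) : Nat.Coprime (2 ^ 2) _))
    rw [← hm]; exact pow_mem h m
  -- the number of Sylow subgroups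
  set N := normalizer ((P : Subgroup K) : Set K) with hN
  have hrel : C.relIndex N = 3 :=
    TwoFusion.relIndex_eq_three_of_all_conj (S := P) h4 hone
  have hNcard : Nat.card N = 12 * a := by
    have h := Subgroup.card_mul_index (C.subgroupOf N)
    rw [Nat.card_congr (subgroupOfEquivOfLe (centralizer_le_normalizer _)).toEquiv, hCcard,
      show (C.subgroupOf N).index = 3 from hrel] at h
    linarith
  have hK : Nat.card K = Nat.card (Sylow 2 K) * (12 * a) := by
    rw [← hNcard, Sylow.card_eq_index_normalizer P, mul_comm]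
    exact (Subgroup.card_mul_index N).symm
  obtain ⟨S, hS, -, heq⟩ := klein_sum P hP hone hz hzo
  rw [hzc, ← hC, hCcard] at heq
  push_cast at heq
  have hnV : Nat.card (Sylow 2 K) * 3 ≤ 18 := by
    have ha' : (0 : ℚ) < a := Nat.cast_pos.2 ha0
    rw [show (8 : ℚ) * (4 * a) ^ 3 / (4 * a) ^ 2 = 32 * a by field_simp; ring, hK] at heq
    push_cast at heq
    have h0 : (0 : ℚ) ≤ Nat.card (Sylow 2 K) := Nat.cast_nonneg _
    have h1 : (Nat.card (Sylow 2 K) : ℚ) * 3 * S = 8 :=
      mul_right_cancel₀ ha'.ne' (by linarith)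
    have h2 := mul_le_mul_of_nonneg_left hS h0
    have : (Nat.card (Sylow 2 K) : ℚ) * 3 ≤ 18 := by linarith
    exact_mod_cast this
  have hmod := card_sylow_modEq_one 2 K
  -- an involution of `P` normalizing another Sylow subgroup
  have hfix : ∀ u ∈ (P : Subgroup K), u ≠ 1 → ∀ Q : Sylow 2 K,
      u ∈ normalizer ((Q : Subgroup K) : Set K) → Q = P := by
    intro u hu hu1 Q huQ
    have huQ' : u ∈ (Q : Subgroup K) := by
      have h := (IsPGroup.of_card (p := 2) (G := zpowers u) (n := 1)
        (by rw [Nat.card_zpowers, orderOf_eq_prime (by rw [pow_two]; exact h4.2 u hu) hu1,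
          pow_one])).inf_normalizer_sylow Q
      have hm : u ∈ zpowers u ⊓ normalizer ((Q : Subgroup K) : Set K) := ⟨mem_zpowers u, huQ⟩
      exact ((SetLike.ext_iff.1 h u).1 hm).2
    obtain ⟨g, hg⟩ := MulAction.exists_smul_eq K P Q
    have hQ4 : TwoFusion.IsFour (Q : Subgroup K) := by
      rw [← hg, Sylow.coe_subgroup_smul]
      exact h4.map _ (MulAut.conj g).injective
    have hQC : (Q : Subgroup K) ≤ C := by
      rw [← hCeq u hu hu1]
      exact fun q hq => mem_centralizer_singleton_iff.2 (hQ4.comm hq huQ')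
    have hQP : (Q : Subgroup K) ≤ (P : Subgroup K) := by
      have h := Q.isPGroup'.inf_normalizer_sylow P
      intro q hq
      exact ((SetLike.ext_iff.1 h q).1 (mem_inf.2 ⟨hq, centralizer_le_normalizer _ (hQC hq)⟩)).2
    exact Sylow.ext (eq_of_le_of_card_ge hQP (by rw [hQ4.1, hP4]))
  set φ := MulAction.toPermHom K (Sylow 2 K) with hφ
  have hker : ∀ x ∈ φ.ker, ∀ Q : Sylow 2 K, x ∈ normalizer ((Q : Subgroup K) : Set K) :=
    fun x hx Q => Sylow.smul_eq_iff_mem_normalizer.1 (DFunLike.congr_fun (MonoidHom.mem_ker.1 hx) Q)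
  have hPker : 1 < Nat.card (Sylow 2 K) → ∀ u ∈ (P : Subgroup K), u ∈ φ.ker → u = 1 := by
    intro h1 u hu huk
    by_contra hu1
    haveI : Nontrivial (Sylow 2 K) := Finite.one_lt_card_iff_nontrivial.1 h1
    obtain ⟨Q, hQ⟩ := exists_ne P
    exact hQ (hfix u hu hu1 Q (hker u huk Q))
  have hn3 : Nat.card (Sylow 2 K) ≠ 3 := by
    intro h3
    have hinj : Function.Injective (φ.comp (P : Subgroup K).subtype) := by
      refine (injective_iff_map_eq_one _).2 fun x hx => Subtype.ext ?_
      exact hPker (by omega) x x.2 hx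
    have h := card_dvd_of_injective _ hinj
    rw [hP4, Nat.card_perm, h3] at h
    norm_num [Nat.factorial] at h
  have hn : Nat.card (Sylow 2 K) = 1 ∨ Nat.card (Sylow 2 K) = 5 := by
    unfold Nat.ModEq at hmod
    omega
  rcases hn with h1 | h5
  · refine ⟨⟨fun x hx g => hmem _ ?_ ?_⟩, 12, Or.inl rfl, by rw [hK, h1, one_mul]⟩
    · haveI : Subsingleton (Sylow 2 K) := (Nat.card_eq_one_iff_unique.1 h1).1
      have hgN : g ∈ N := Sylow.smul_eq_iff_mem_normalizer.1 (Subsingleton.elim (g • P) P)
      rw [hC, mem_centralizer_iff]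
      intro q hq
      have hx' := mem_centralizer_iff.1 (hAP hx) _ ((mem_normalizer_iff''.1 hgN q).1 hq)
      calc q * (g * x * g⁻¹) = g * ((g⁻¹ * q * g) * x) * g⁻¹ := by group
        _ = g * (x * (g⁻¹ * q * g)) * g⁻¹ := by rw [hx']
        _ = g * x * g⁻¹ * q := by group
    · have : orderOf (g * x * g⁻¹) = orderOf x :=
        orderOf_injective (MulAut.conj g).toMonoidHom (MulAut.conj g).injective x
      rw [this]; exact hA.of_dvd_nat (orderOf_dvd_natCard A hx)
  · have h60 : Nat.card K = 60 * a := by rw [hK, h5]; ring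
    have hodd : Odd (Nat.card φ.ker) := by
      by_contra hev
      rw [Nat.not_odd_iff_even, even_iff_two_dvd] at hev
      obtain ⟨r, hr⟩ := exists_prime_orderOf_dvd_card' (G := φ.ker) 2 hev
      obtain ⟨g, hg⟩ := isConj_iff.1 (hone r z (by rw [Subgroup.orderOf_coe, hr]) hzo)
      have hzk : z ∈ φ.ker := hg ▸ (MonoidHom.normal_ker φ).conj_mem r r.2 g
      have := hPker (by omega) z hz hzk
      rw [this, orderOf_one] at hzo; omega
    have hRA : φ.ker ≤ A := by
      intro x hx
      refine hmem x ?_ (hodd.of_dvd_nat (orderOf_dvd_natCard _ hx))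
      rw [hC, mem_centralizer_iff]
      intro q hq
      have h1 : x * q * x⁻¹ * q⁻¹ ∈ (P : Subgroup K) :=
        mul_mem ((mem_normalizer_iff.1 (hker x hx P) q).1 hq) (inv_mem hq)
      have h2 : x * q * x⁻¹ * q⁻¹ ∈ φ.ker := by
        rw [show x * q * x⁻¹ * q⁻¹ = x * (q * x⁻¹ * q⁻¹) by group]
        exact mul_mem hx ((MonoidHom.normal_ker φ).conj_mem _ (inv_mem hx) q)
      have h3 := hPker (by omega) _ h1 h2
      rw [mul_inv_eq_one, mul_inv_eq_iff_eq_mul] at h3
      exact h3.symm
    have hdvd : a ∣ Nat.card φ.ker := by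
      have h1 := φ.ker.card_mul_index
      rw [Subgroup.index_ker, h60] at h1
      have h2 : Nat.card φ.range ∣ 120 := by
        have h := φ.range.card_subgroup_dvd_card
        rw [Nat.card_perm, h5] at h
        exact h
      have h3 : 60 * a ∣ Nat.card φ.ker * 120 := h1 ▸ mul_dvd_mul_left _ h2
      rw [show Nat.card φ.ker * 120 = 60 * (Nat.card φ.ker * 2) by ring] at h3
      exact (Nat.coprime_two_right.2 hA).dvd_of_dvd_mul_right
        (Nat.dvd_of_mul_dvd_mul_left (by norm_num) h3)
    have hRAeq : φ.ker = A := eq_of_le_of_card_ge hRA (Nat.le_of_dvd Nat.card_pos hdvd)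
    exact ⟨hRAeq ▸ MonoidHom.normal_ker φ, 60, Or.inr rfl, h60⟩

end Cfsg.Agent.SmallCent
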