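import Cfsg.Agent.SmallCent.Setup
import Cfsg.Agent.SmallCent.KleinCore

/-!
# The centralizers of elements of the odd core
-/

set_option autoImplicit false
set_option linter.unusedSectionVars false
set_option linter.style.haveILetI false

open Subgroup

namespace Cfsg.Agent.SmallCent

universe u

variable {G : Type u} [Group G] [Fintype G]

namespace Loc

variable {P : Sylow 2 G} {σ τ : G} {O : Subgroup G} (L : Loc P σ τ O)
include L

theorem four_le_cent : four P τ ≤ centralizer (core O τ : Set G) := fun q hq => by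
  rw [mem_centralizer_iff]
  exact fun y hy => (L.four_comm_core hq hy).symm

theorem O_le_cent : O ≤ centralizer (core O τ : Set G) := fun q hq => by
  rw [mem_centralizer_iff]
  exact fun y hy => L.comm (mem_core.1 hy).1 hq

theorem core_le_cent : core O τ ≤ centralizer (core O τ : Set G) :=
  inf_le_left.trans L.O_le_cent

theorem local_sylow {K : Subgroup G} {x : G} (hx : x ∈ core O τ) (hx1 : x ≠ 1)
    (hA : centralizer (core O τ : Set G) ≤ K) (hK : K ≤ centralizer ({x} : Set G)) :
    ∃ T : Sylow 2 K, (T : Subgroup K) = (four P τ).subgroupOf K := by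
  classical
  haveI : Fact (Nat.Prime 2) := ⟨Nat.prime_two⟩
  have hVK : four P τ ≤ K := L.four_le_cent.trans hA
  have hOK : O ≤ K := L.O_le_cent.trans hA
  have hV : Nat.card ((four P τ).subgroupOf K) = 4 := by
    rw [Nat.card_congr (subgroupOfEquivOfLe hVK).toEquiv, L.card_four]
  obtain ⟨T, hT⟩ := (IsPGroup.of_card (p := 2) (G := (four P τ).subgroupOf K) (n := 2)
    (by rw [hV]; rfl)).exists_le_sylow
  refine ⟨T, (eq_of_le_of_card_ge hT ?_).symm⟩
  rw [hV]
  obtain ⟨k, hk⟩ := IsPGroup.iff_card.1 T.isPGroup'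
  haveI : Nontrivial (T : Subgroup K) := Finite.one_lt_card_iff_nontrivial.1 (by
    have := card_le_of_le hT
    rw [hV] at this; omega)
  haveI := T.isPGroup'.center_nontrivial
  obtain ⟨c, hc⟩ : ∃ c : center (T : Subgroup K), orderOf c = 2 := by
    refine exists_prime_orderOf_dvd_card' 2 ?_
    obtain ⟨j, hj⟩ := IsPGroup.iff_card.1 (T.isPGroup'.to_subgroup (center (T : Subgroup K)))
    rcases j with - | j
    · have := Finite.one_lt_card (α := center (T : Subgroup K))
      rw [hj] at this; norm_num at this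
    · rw [hj]; exact dvd_pow_self 2 (Nat.succ_ne_zero j)
  set c0 : G := (((c : (T : Subgroup K)) : K) : G) with hc0
  have hc0o : orderOf c0 = 2 := by
    rw [hc0, Subgroup.orderOf_coe, Subgroup.orderOf_coe, Subgroup.orderOf_coe, hc]
  have hcV : c0 ∈ centralizer (four P τ : Set G) := by
    rw [mem_centralizer_iff]
    intro q hq
    have hqT : (⟨q, hVK hq⟩ : K) ∈ (T : Subgroup K) := hT (mem_subgroupOf.2 hq)
    have h := mem_center_iff.1 c.2 ⟨⟨q, hVK hq⟩, hqT⟩
    exact congrArg (fun w : (T : Subgroup K) => ((w : K) : G)) h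
  rw [L.centralizer_four] at hcV
  obtain ⟨h1, h2⟩ := mem_centralizer_pair.1 hcV
  obtain ⟨q, hq, o, ho, hqo⟩ := L.mem_centPair h1 h2
  have ho1 : o = 1 := by
    refine eq_one_of_odd (p := 1) (L.odd_of_mem (mem_core.1 ho).1) ?_
    have hsq : c0 * c0 = 1 := by
      rw [← pow_two]; exact orderOf_dvd_iff_pow_eq_one.1 (dvd_of_eq hc0o)
    have hqq := L.four_isFour.2 q hq
    rw [pow_one, pow_two]
    calc o * o = q * q * (o * o) := by rw [hqq, one_mul]
      _ = q * (q * o) * o := by group
      _ = q * (o * q) * o := by rw [L.four_comm_core hq ho]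
      _ = c0 * c0 := by rw [hqo]; group
      _ = 1 := hsq
  rw [ho1, mul_one] at hqo
  have hq1 : q ≠ 1 := fun e => by
    rw [hqo, e, orderOf_one] at hc0o; omega
  obtain ⟨r, hrq, -, hrC⟩ := L.exists_fuse hq hq1
  have hrK : r ∈ K := hA (by rw [mem_centralizer_iff]; exact fun y hy => (hrC y hy).symm)
  let f : (T : Subgroup K) →* ↥(K ⊓ centralizer ({σ ^ 2} : Set G)) :=
    { toFun := fun t => ⟨r * ((t : K) : G) * r⁻¹,
        mem_inf.2 ⟨mul_mem (mul_mem hrK (t : K).2) (inv_mem hrK), by
          rw [mem_centralizer_singleton_iff, ← hrq, ← hqo]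
          have h := congrArg (fun w : (T : Subgroup K) => ((w : K) : G)) (mem_center_iff.1 c.2 t)
          calc r * ((t : K) : G) * r⁻¹ * (r * c0 * r⁻¹) = r * (((t : K) : G) * c0) * r⁻¹ := by
                group
            _ = r * (c0 * ((t : K) : G)) * r⁻¹ := by
                rw [show ((t : K) : G) * c0 = c0 * ((t : K) : G) from h]
            _ = r * c0 * r⁻¹ * (r * ((t : K) : G) * r⁻¹) := by group⟩⟩
      map_one' := Subtype.ext (by simp)
      map_mul' := fun s t => Subtype.ext (by simp [mul_assoc]) }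
  have hf : Function.Injective f := fun s t e => Subtype.ext (Subtype.ext
    (mul_left_cancel (mul_right_cancel (congrArg Subtype.val e))))
  have hd := card_dvd_of_injective f hf
  rw [L.card_inf_cent hx hx1 hVK hOK hK] at hd
  refine Nat.le_of_dvd (by norm_num) (Nat.Coprime.dvd_of_dvd_mul_right ?_ hd)
  rw [hk]
  exact Nat.Coprime.pow_left k (Nat.coprime_two_left.2 L.odd)

theorem local_data {K : Subgroup G} {x : G} (hx : x ∈ core O τ) (hx1 : x ≠ 1)
    (hA : centralizer (core O τ : Set G) ≤ K) (hK : K ≤ centralizer ({x} : Set G)) :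
    ∃ (T : Sylow 2 K) (z : K), IsKleinFour (T : Subgroup K) ∧
      (∀ s t : K, orderOf s = 2 → orderOf t = 2 → IsConj s t) ∧ z ∈ (T : Subgroup K) ∧
      orderOf z = 2 ∧ Nat.card (centralizer ({z} : Set K)) = 4 * Nat.card O ∧
      Nat.card (centralizer ((T : Subgroup K) : Set K)) ≤ 4 * Nat.card (core O τ) ∧
      (core O τ).subgroupOf K ≤ centralizer ((T : Subgroup K) : Set K) := by
  classical
  haveI : Fact (Nat.Prime 2) := ⟨Nat.prime_two⟩
  have hVK : four P τ ≤ K := L.four_le_cent.trans hA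
  have hOK : O ≤ K := L.O_le_cent.trans hA
  obtain ⟨T, hT⟩ := L.local_sylow hx hx1 hA hK
  have hT4 : TwoFusion.IsFour (T : Subgroup K) := by
    rw [hT]
    refine ⟨by rw [Nat.card_congr (subgroupOfEquivOfLe hVK).toEquiv, L.card_four], fun q hq => ?_⟩
    exact Subtype.ext (L.four_isFour.2 _ (mem_subgroupOf.1 hq))
  let z : K := ⟨σ ^ 2, hVK L.z_mem_four⟩
  have hzT : z ∈ (T : Subgroup K) := by rw [hT, mem_subgroupOf]; exact L.z_mem_four
  have hzo : orderOf z = 2 := by rw [← Subgroup.orderOf_coe]; exact L.z_order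
  have hone : ∀ s : K, orderOf s = 2 → IsConj s z := by
    intro s hs
    obtain ⟨S, hS⟩ := (IsPGroup.of_card (p := 2) (G := zpowers s) (n := 1)
      (by rw [Nat.card_zpowers, hs, pow_one])).exists_le_sylow
    obtain ⟨a, ha⟩ := MulAction.exists_smul_eq K S T
    have hsT : a * s * a⁻¹ ∈ (T : Subgroup K) := by
      rw [← ha, Sylow.coe_subgroup_smul]
      exact ⟨s, hS (mem_zpowers s), rfl⟩
    have hne : ((a * s * a⁻¹ : K) : G) ≠ 1 := fun e => by
      have e1 : a * s * a⁻¹ = 1 := Subtype.ext e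
      rw [conj_eq_one_iff] at e1
      rw [e1, orderOf_one] at hs; omega
    have hsV : ((a * s * a⁻¹ : K) : G) ∈ four P τ := by
      rw [hT, mem_subgroupOf] at hsT; exact hsT
    obtain ⟨r, hr, -, hrC⟩ := L.exists_fuse hsV hne
    have hrK : r ∈ K := hA (by rw [mem_centralizer_iff]; exact fun y hy => (hrC y hy).symm)
    refine isConj_iff.2 ⟨⟨r, hrK⟩ * a, Subtype.ext ?_⟩
    show r * (a : G) * (s : G) * (r * (a : G))⁻¹ = σ ^ 2
    rw [← hr]
    push_cast
    group
  refine ⟨T, z, hT4.isKleinFour, fun s t hs ht => (hone s hs).trans (hone t ht).symm, hzT, hzo,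
    ?_, ?_, ?_⟩
  · rw [← L.card_inf_cent hx hx1 hVK hOK hK]
    exact Nat.card_congr
      { toFun := fun c => ⟨((c : K) : G), (c : K).2, mem_centralizer_singleton_iff.2
          (congrArg Subtype.val (mem_centralizer_singleton_iff.1 c.2))⟩
        invFun := fun c => ⟨⟨(c : G), c.2.1⟩, mem_centralizer_singleton_iff.2
          (Subtype.ext (mem_centralizer_singleton_iff.1 c.2.2))⟩
        left_inv := fun c => rfl
        right_inv := fun c => rfl }
  · rw [← L.card_centPair]
    refine Nat.card_le_card_of_injective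
      (fun c => (⟨((c : K) : G), mem_centralizer_pair.2 ⟨?_, ?_⟩⟩ :
        centralizer ({σ ^ 2, τ} : Set G)))
      fun c d e => Subtype.ext (Subtype.ext (congrArg Subtype.val e :))
    · exact (congrArg Subtype.val (mem_centralizer_iff.1 c.2 z hzT)).symm
    · exact (congrArg Subtype.val (mem_centralizer_iff.1 c.2 ⟨τ, hVK L.tau_mem_four⟩
        (by rw [SetLike.mem_coe, hT, mem_subgroupOf]; exact L.tau_mem_four))).symm
  · intro y hy
    rw [mem_centralizer_iff]
    intro q hq
    rw [SetLike.mem_coe, hT, mem_subgroupOf] at hq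
    exact Subtype.ext (L.four_comm_core hq (mem_subgroupOf.1 hy))

theorem local_lower {K : Subgroup G} {x : G} (hx : x ∈ core O τ) (hx1 : x ≠ 1)
    (hA : centralizer (core O τ : Set G) ≤ K) (hK : K ≤ centralizer ({x} : Set G)) :
    12 * Nat.card (core O τ) * Nat.card (core O (σ * τ)) ^ 3 ≤ Nat.card K := by
  classical
  obtain ⟨T, z, hT, hone, hzT, hzo, hz, hP, -⟩ := L.local_data hx hx1 hA hK
  haveI := Fintype.ofFinite K
  have h := klein_lower T hT hone hzT hzo
  rw [hz, L.card_O] at h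
  have h' := h.trans (Nat.mul_le_mul_left (Nat.card K) (Nat.pow_le_pow_left hP 2))
  refine Nat.le_of_mul_le_mul_right (c := 16 * Nat.card (core O τ) ^ 2) ?_
    (Nat.mul_pos (by norm_num) (pow_pos Nat.card_pos 2))
  calc 12 * Nat.card (core O τ) * Nat.card (core O (σ * τ)) ^ 3
        * (16 * Nat.card (core O τ) ^ 2)
      = 3 * (4 * (Nat.card (core O τ) * Nat.card (core O (σ * τ)))) ^ 3 := by ring
    _ ≤ Nat.card K * (4 * Nat.card (core O τ)) ^ 2 := h'
    _ = Nat.card K * (16 * Nat.card (core O τ) ^ 2) := by ring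

theorem local_core {K : Subgroup G} {x : G} (hx : x ∈ core O τ) (hx1 : x ≠ 1)
    (hA : centralizer (core O τ : Set G) ≤ K) (hK : K ≤ centralizer ({x} : Set G))
    (hb : Nat.card (core O (σ * τ)) = 1) :
    (∀ g ∈ K, ∀ y ∈ core O τ, g * y * g⁻¹ ∈ core O τ) ∧
      ∃ h, (h = 12 ∨ h = 60) ∧ Nat.card K = h * Nat.card (core O τ) := by
  classical
  obtain ⟨T, z, hT, hone, hzT, hzo, hz, -, hAT⟩ := L.local_data hx hx1 hA hK
  haveI := Fintype.ofFinite K
  have hAK : core O τ ≤ K := L.core_le_cent.trans hA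
  have hcard : Nat.card ((core O τ).subgroupOf K) = Nat.card (core O τ) :=
    Nat.card_congr (subgroupOfEquivOfLe hAK).toEquiv
  obtain ⟨hn, h, hh, hc⟩ := klein_core T hT hone hzT hzo ((core O τ).subgroupOf K)
    (hcard.symm ▸ L.odd_core) (by rw [hz, L.card_O, hb, mul_one, hcard]) hAT
  refine ⟨fun g hg y hy => ?_, h, hh, by rw [hc, hcard]⟩
  have h' := hn.conj_mem ⟨y, hAK hy⟩ (mem_subgroupOf.2 hy) ⟨g, hg⟩
  exact mem_subgroupOf.1 h'

end Loc

end Cfsg.Agent.SmallCent
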