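import Cfsg.Agent.DihBlock.OneClass
import Cfsg.Agent.TwoFusion.DihedralFusion
import Mathlib.GroupTheory.FixedPointFree

/-!
# A dihedral Sylow 2-subgroup of order eight with a rotation centralizing nothing else
-/

set_option autoImplicit false
set_option linter.unusedSectionVars false

open Subgroup

namespace Cfsg.Agent.SmallCent

universe u

theorem mem_of_pow_mem {G : Type u} [Group G] {H : Subgroup G} {x : G} (hx : Odd (orderOf x)) {k : ℕ}
    (h : x ^ 2 ^ k ∈ H) : x ∈ H := by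
  obtain ⟨m, hm⟩ := exists_pow_eq_self_of_coprime
    (x := x) (n := 2 ^ k) (Nat.Coprime.pow_left k (Nat.coprime_two_left.2 hx))
  rw [← hm]
  exact pow_mem h m

theorem eq_one_of_odd {G : Type u} [Group G] {p : ℕ} {x : G} (hx : Odd (orderOf x)) (h : x ^ 2 ^ p = 1) : x = 1 :=
  Subgroup.mem_bot.1 (mem_of_pow_mem hx (H := ⊥) (by rw [h]; exact one_mem _))

variable {G : Type u} [Group G] [Fintype G]

/-- `O` is the odd core of the centralizer of `σ ^ 2`. -/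
structure Loc (P : Sylow 2 G) (σ τ : G) (O : Subgroup G) : Prop where
  dih : DihBlock.Dih P σ τ 2
  one : ∀ s : G, orderOf s = 2 → IsConj (σ ^ 2) s
  cent : Nat.card (centralizer ({σ} : Set G)) = 4
  le : O ≤ centralizer ({σ ^ 2} : Set G)
  odd : Odd (Nat.card O)
  card_cent : Nat.card (centralizer ({σ ^ 2} : Set G)) = 8 * Nat.card O
  conj : ∀ c ∈ centralizer ({σ ^ 2} : Set G), ∀ x ∈ O, c * x * c⁻¹ ∈ O
  mem : ∀ x ∈ centralizer ({σ ^ 2} : Set G), Odd (orderOf x) → x ∈ O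

theorem exists_loc {P : Sylow 2 G} {σ τ : G} (D : DihBlock.Dih P σ τ 2)
    (hone : ∀ s : G, orderOf s = 2 → IsConj (σ ^ 2) s)
    (hcent : Nat.card (centralizer ({σ} : Set G)) = 4) : ∃ O, Loc P σ τ O := by
  obtain ⟨Q, N, hN, hNo, -, hcard, -⟩ := D.exists_local
  haveI := hN
  refine ⟨N.map (centralizer ({σ ^ 2} : Set G)).subtype, D, hone, hcent, map_subtype_le N, ?_,
    ?_, ?_, ?_⟩
  · rw [card_map_of_injective (subtype_injective _)]
    exact Nat.odd_iff.2 (Nat.two_dvd_ne_zero.1 hNo)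
  · rw [card_map_of_injective (subtype_injective _), ← hcard]
  · rintro c hc _ ⟨x, hx, rfl⟩
    exact ⟨⟨c, hc⟩ * x * ⟨c, hc⟩⁻¹, hN.conj_mem x hx _, rfl⟩
  · intro x hx ho
    refine ⟨⟨x, hx⟩, ?_, rfl⟩
    refine mem_of_pow_mem (G := centralizer ({σ ^ 2} : Set G)) (x := ⟨x, hx⟩) (k := 3)
      (by rw [← Subgroup.orderOf_coe]; exact ho) ?_
    have hidx : N.index = 2 ^ 3 := by
      have h := N.index_mul_card
      rw [← hcard] at h
      exact Nat.eq_of_mul_eq_mul_right Nat.card_pos (h.trans (by norm_num))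
    rw [← hidx]
    exact Subgroup.pow_index_mem N _

/-- The points of `O` fixed by an involution. -/
def core (O : Subgroup G) (τ : G) : Subgroup G := O ⊓ centralizer ({τ} : Set G)

theorem mem_core {O : Subgroup G} {τ x : G} : x ∈ core O τ ↔ x ∈ O ∧ x * τ = τ * x := by
  rw [core, mem_inf, mem_centralizer_singleton_iff]

/-- The four-group of elements of `P` commuting with `τ`. -/
def four (P : Sylow 2 G) (τ : G) : Subgroup G := (P : Subgroup G) ⊓ centralizer ({τ} : Set G)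

theorem mem_four {P : Sylow 2 G} {τ x : G} :
    x ∈ four P τ ↔ x ∈ (P : Subgroup G) ∧ x * τ = τ * x := by
  rw [four, mem_inf, mem_centralizer_singleton_iff]

theorem mem_centralizer_pair {z t x : G} :
    x ∈ centralizer ({z, t} : Set G) ↔ x * z = z * x ∧ x * t = t * x := by
  rw [mem_centralizer_iff]
  constructor
  · intro h
    exact ⟨(h z (Or.inl rfl)).symm, (h t (Or.inr rfl)).symm⟩
  · rintro ⟨h1, h2⟩ y (rfl | rfl)
    exacts [h1.symm, h2.symm]

namespace Loc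

variable {P : Sylow 2 G} {σ τ : G} {O : Subgroup G} (L : Loc P σ τ O)
include L

theorem z_order : orderOf (σ ^ 2) = 2 := L.dih.orderOf_J

theorem z_ne_one : σ ^ 2 ≠ 1 := fun e => by
  have := L.z_order; rw [e, orderOf_one] at this; omega

theorem z_comm {x : G} (hx : x ∈ O) : x * σ ^ 2 = σ ^ 2 * x :=
  mem_centralizer_singleton_iff.1 (L.le hx)

theorem P_le : (P : Subgroup G) ≤ centralizer ({σ ^ 2} : Set G) := L.dih.P_le_centralizer

theorem odd_of_mem {x : G} (hx : x ∈ O) : Odd (orderOf x) :=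
  L.odd.of_dvd_nat (orderOf_dvd_natCard O hx)

theorem eq_one_of_mem {x : G} (hP : x ∈ (P : Subgroup G)) (hO : x ∈ O) : x = 1 := by
  obtain ⟨k, hk⟩ := L.dih.exists_orderOf hP
  exact eq_one_of_odd (L.odd_of_mem hO) (by rw [← hk]; exact pow_orderOf_eq_one x)

theorem unique {q q' o o' : G} (hq : q ∈ (P : Subgroup G)) (hq' : q' ∈ (P : Subgroup G))
    (ho : o ∈ O) (ho' : o' ∈ O) (h : q * o = q' * o') : q = q' ∧ o = o' := by
  have e : q'⁻¹ * q = o' * o⁻¹ := by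
    calc q'⁻¹ * q = q'⁻¹ * (q * o) * o⁻¹ := by group
      _ = o' * o⁻¹ := by rw [h]; group
  have h1 := L.eq_one_of_mem (mul_mem (inv_mem hq') hq) (e ▸ mul_mem ho' (inv_mem ho))
  obtain rfl : q' = q := inv_mul_eq_one.1 h1
  exact ⟨rfl, mul_left_cancel h⟩

theorem decomp {c : G} (hc : c ∈ centralizer ({σ ^ 2} : Set G)) :
    ∃ q ∈ (P : Subgroup G), ∃ o ∈ O, c = q * o := by
  let f : ↥(P : Subgroup G) × ↥O → centralizer ({σ ^ 2} : Set G) :=
    fun x => ⟨(x.1 : G) * x.2, mul_mem (L.P_le x.1.2) (L.le x.2.2)⟩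
  have hf : Function.Injective f := fun x y h => by
    obtain ⟨h1, h2⟩ := L.unique x.1.2 y.1.2 x.2.2 y.2.2 (congrArg Subtype.val h)
    exact Prod.ext (Subtype.ext h1) (Subtype.ext h2)
  obtain ⟨⟨q, o⟩, hqo⟩ := (hf.bijective_of_nat_card_le
    (by rw [Nat.card_prod, L.dih.card, L.card_cent])).2 ⟨c, hc⟩
  exact ⟨q, q.2, o, o.2, (congrArg Subtype.val hqo).symm⟩

theorem sigma_free {x : G} (hx : x ∈ O) (h : x * σ = σ * x) : x = 1 := by
  have h4 : x ^ 2 ^ 2 = 1 := by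
    have hd : orderOf x ∣ 4 := L.cent ▸
      orderOf_dvd_natCard (centralizer ({σ} : Set G)) (mem_centralizer_singleton_iff.2 h)
    exact orderOf_dvd_iff_pow_eq_one.1 (by norm_num; exact hd)
  exact eq_one_of_odd (L.odd_of_mem hx) h4

theorem inv {x : G} (hx : x ∈ O) : σ * x * σ⁻¹ = x⁻¹ := by
  have hσ : σ ∈ centralizer ({σ ^ 2} : Set G) := L.P_le L.dih.mem_σ
  let f : O →* O :=
    { toFun := fun a => ⟨σ * a * σ⁻¹, L.conj σ hσ a a.2⟩
      map_one' := Subtype.ext (by simp)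
      map_mul' := fun a b => Subtype.ext (by simp [mul_assoc]) }
  have hfp : MonoidHom.FixedPointFree f := fun a ha =>
    Subtype.ext (L.sigma_free a.2
      (mul_inv_eq_iff_eq_mul.1 (congrArg Subtype.val ha : σ * a * σ⁻¹ = a)).symm)
  have hinv : Function.Involutive f := fun a => Subtype.ext (by
    show σ * (σ * a * σ⁻¹) * σ⁻¹ = a
    calc σ * (σ * a * σ⁻¹) * σ⁻¹ = σ ^ 2 * a * (σ ^ 2)⁻¹ := by rw [pow_two]; group
      _ = a := by rw [← L.z_comm a.2, mul_inv_cancel_right])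
  have h := congrFun (MonoidHom.FixedPointFree.coe_eq_inv_of_involutive hfp hinv) ⟨x, hx⟩
  exact (congrArg Subtype.val h :)

theorem comm {x y : G} (hx : x ∈ O) (hy : y ∈ O) : x * y = y * x := by
  have h := L.inv (mul_mem hx hy)
  have e : σ * (x * y) * σ⁻¹ = σ * x * σ⁻¹ * (σ * y * σ⁻¹) := by group
  rw [e, L.inv hx, L.inv hy, mul_inv_rev] at h
  simpa [mul_inv_rev] using (congrArg (fun g => g⁻¹) h).symm

theorem swap : Loc P σ (σ * τ) O :=
  { L with
    dih :=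
      { mem_σ := L.dih.mem_σ
        mem_τ := by simpa using L.dih.refl_mem 1
        pow2 := L.dih.pow2
        order := L.dih.order
        inv := by
          calc σ * τ * σ * (σ * τ)⁻¹ = σ * (τ * σ * τ⁻¹) * σ⁻¹ := by group
            _ = σ⁻¹ := by rw [L.dih.inv]; group
        sq := by simpa using L.dih.refl_sq 1
        notMem := by simpa using L.dih.refl_notMem 1
        card := L.dih.card } }

theorem core_swap_swap : core O (σ * (σ * τ)) = core O τ := by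
  ext x
  simp only [mem_core, and_congr_right_iff]
  intro hx
  rw [← mul_assoc σ σ τ, ← pow_two, ← mul_assoc x, L.z_comm hx, mul_assoc, mul_assoc]
  exact ⟨fun h => mul_left_cancel h, fun h => by rw [h]⟩

theorem tau_conj {x : G} (hx : x ∈ O) : τ * x * τ⁻¹ ∈ O :=
  L.conj τ (L.P_le L.dih.mem_τ) x hx

theorem tau_inv : τ⁻¹ = τ := inv_eq_of_mul_eq_one_right L.dih.sq

theorem core_inj {x : G} (hx : x ∈ core O τ) (hx' : x ∈ core O (σ * τ)) : x = 1 := by
  rw [mem_core] at hx hx'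
  refine L.sigma_free hx.1 ?_
  have h := hx'.2
  rw [← mul_assoc, mul_assoc σ, ← hx.2, ← mul_assoc] at h
  exact mul_right_cancel h

theorem core_split {y : G} (hy : y ∈ O) :
    ∃ u ∈ core O τ, ∃ w ∈ core O (σ * τ), y = u * w := by
  obtain ⟨l, hl⟩ := L.odd
  set y₀ := y ^ (l + 1) with hy₀
  have hy₀O : y₀ ∈ O := pow_mem hy _
  have hsq : y₀ * y₀ = y := by
    rw [hy₀, ← pow_add, show l + 1 + (l + 1) = Nat.card O + 1 by omega, pow_succ]
    have : y ^ Nat.card O = 1 := orderOf_dvd_iff_pow_eq_one.1 (orderOf_dvd_natCard O hy)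
    rw [this, one_mul]
  set t := τ * y₀ * τ⁻¹ with ht
  have htO : t ∈ O := L.tau_conj hy₀O
  have htt : τ * t * τ⁻¹ = y₀ := by
    rw [ht]
    calc τ * (τ * y₀ * τ⁻¹) * τ⁻¹ = (τ * τ) * y₀ * (τ * τ)⁻¹ := by group
      _ = y₀ := by rw [L.dih.sq]; group
  refine ⟨y₀ * t, mem_core.2 ⟨mul_mem hy₀O htO, ?_⟩, y₀ * t⁻¹,
    mem_core.2 ⟨mul_mem hy₀O (inv_mem htO), ?_⟩, ?_⟩
  · have e : τ * (y₀ * t) * τ⁻¹ = y₀ * t := by
      calc τ * (y₀ * t) * τ⁻¹ = (τ * y₀ * τ⁻¹) * (τ * t * τ⁻¹) := by group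
        _ = y₀ * t := by rw [← ht, htt, L.comm htO hy₀O]
    exact (mul_inv_eq_iff_eq_mul.1 e).symm
  · have e1 : τ * (y₀ * t⁻¹) * τ⁻¹ = (y₀ * t⁻¹)⁻¹ := by
      calc τ * (y₀ * t⁻¹) * τ⁻¹ = (τ * y₀ * τ⁻¹) * (τ * t * τ⁻¹)⁻¹ := by group
        _ = (y₀ * t⁻¹)⁻¹ := by rw [← ht, htt, mul_inv_rev, inv_inv]
    have e2 : σ * τ * (y₀ * t⁻¹) * (σ * τ)⁻¹ = y₀ * t⁻¹ := by
      calc σ * τ * (y₀ * t⁻¹) * (σ * τ)⁻¹ = σ * (τ * (y₀ * t⁻¹) * τ⁻¹) * σ⁻¹ := by group
        _ = y₀ * t⁻¹ := by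
          rw [e1, L.inv (inv_mem (mul_mem hy₀O (inv_mem htO))), inv_inv]
    exact (mul_inv_eq_iff_eq_mul.1 e2).symm
  · rw [mul_assoc, ← mul_assoc t, L.comm htO hy₀O, mul_assoc, mul_inv_cancel, mul_one, hsq]

theorem card_O : Nat.card O = Nat.card (core O τ) * Nat.card (core O (σ * τ)) := by
  rw [← Nat.card_prod]
  refine (Nat.card_eq_of_bijective (fun x : core O τ × core O (σ * τ) =>
    (⟨(x.1 : G) * x.2, mul_mem x.1.2.1 x.2.2.1⟩ : O)) ⟨?_, ?_⟩).symm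
  · rintro ⟨x, y⟩ ⟨x', y'⟩ h
    have h' : (x : G) * y = x' * y' := congrArg Subtype.val h
    have e : (x' : G)⁻¹ * x = y' * (y : G)⁻¹ := by
      calc (x' : G)⁻¹ * x = (x' : G)⁻¹ * (x * y) * (y : G)⁻¹ := by group
        _ = y' * (y : G)⁻¹ := by rw [h']; group
    have h1 := L.core_inj (mul_mem (inv_mem x'.2) x.2) (e ▸ mul_mem y'.2 (inv_mem y.2))
    obtain rfl : x' = x := Subtype.ext (inv_mul_eq_one.1 h1)
    exact Prod.ext rfl (Subtype.ext (mul_left_cancel h'))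
  · rintro ⟨y, hy⟩
    obtain ⟨u, hu, w, hw, rfl⟩ := L.core_split hy
    exact ⟨(⟨u, hu⟩, ⟨w, hw⟩), rfl⟩

theorem odd_core : Odd (Nat.card (core O τ)) := L.odd.of_dvd_nat (card_dvd_of_le inf_le_left)

theorem four_cases {q : G} (hq : q ∈ four P τ) :
    q = 1 ∨ q = σ ^ 2 ∨ q = τ ∨ q = σ ^ 2 * τ := by
  obtain ⟨hqP, hqc⟩ := mem_four.1 hq
  have hno : ∀ i, σ ^ i * τ = τ * σ ^ i → σ ^ (i + i) = 1 := fun i h => by
    rw [L.dih.mul_τ] at h
    rw [pow_add]
    calc σ ^ i * σ ^ i = σ ^ i * (σ ^ i * τ) * τ⁻¹ := by group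
      _ = 1 := by rw [h]; group
  rcases L.dih.cases hqP with ⟨i, hi, rfl⟩ | ⟨i, hi, rfl⟩
  · have h := (L.dih.pow_eq_one_iff _).1 (hno i hqc)
    rcases (show i = 0 ∨ i = 2 by omega) with rfl | rfl <;> simp
  · have hqc' : σ ^ i * τ = τ * σ ^ i := by
      refine mul_right_cancel (b := τ) ?_
      rw [hqc, mul_assoc]
    have h := (L.dih.pow_eq_one_iff _).1 (hno i hqc')
    rcases (show i = 0 ∨ i = 2 by omega) with rfl | rfl <;> simp

theorem z_mem_four : σ ^ 2 ∈ four P τ :=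
  mem_four.2 ⟨L.dih.J_mem, (mem_centralizer_singleton_iff.1 (L.P_le L.dih.mem_τ)).symm⟩

theorem tau_mem_four : τ ∈ four P τ := mem_four.2 ⟨L.dih.mem_τ, rfl⟩

theorem card_four : Nat.card (four P τ) = 4 := by
  have h := L.dih.cardComm_refl 0
  simp only [pow_zero, one_mul, DihBlock.cardComm] at h
  rw [← h]
  exact Nat.card_congr
    { toFun := fun q => ⟨⟨q, (mem_four.1 q.2).1⟩, (mem_four.1 q.2).2⟩
      invFun := fun q => ⟨q.1, mem_four.2 ⟨q.1.2, q.2⟩⟩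
      left_inv := fun q => rfl
      right_inv := fun q => rfl }

theorem four_isFour : TwoFusion.IsFour (four P τ) := by
  refine ⟨L.card_four, fun q hq => ?_⟩
  have hJ : σ ^ 2 * σ ^ 2 = 1 := by rw [← pow_add]; exact L.dih.pow_two_h
  rcases L.four_cases hq with rfl | rfl | rfl | rfl
  · exact one_mul 1
  · exact hJ
  · exact L.dih.sq
  · exact L.dih.refl_sq 2

theorem four_comm_core {q x : G} (hq : q ∈ four P τ) (hx : x ∈ core O τ) : q * x = x * q := by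
  obtain ⟨hxO, hxτ⟩ := mem_core.1 hx
  rcases L.four_cases hq with rfl | rfl | rfl | rfl
  · simp
  · exact (L.z_comm hxO).symm
  · exact hxτ.symm
  · rw [mul_assoc, ← hxτ, ← mul_assoc, ← L.z_comm hxO, mul_assoc]

theorem comm_mem_four {q x : G} (hq : q ∈ (P : Subgroup G)) (hx : x ∈ core O τ) (hx1 : x ≠ 1)
    (h : q * x = x * q) : q ∈ four P τ := by
  obtain ⟨hxO, hxτ⟩ := mem_core.1 hx
  have hbad : σ * x ≠ x * σ := fun e => hx1 (L.sigma_free hxO e.symm)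
  have hbad3 : σ ^ 3 * x ≠ x * σ ^ 3 := fun e => hbad (by
    rw [show (3 : ℕ) = 1 + 2 from rfl, pow_add, pow_one, mul_assoc, ← L.z_comm hxO,
      ← mul_assoc, ← mul_assoc x] at e
    exact mul_right_cancel e)
  have hpow : ∀ i < 2 * 2, σ ^ i * x = x * σ ^ i → σ ^ i ∈ four P τ := by
    intro i hi e
    rcases (show i = 0 ∨ i = 1 ∨ i = 2 ∨ i = 3 by omega) with rfl | rfl | rfl | rfl
    · simp
    · exact absurd (by simpa using e) hbad
    · exact L.z_mem_four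
    · exact absurd e hbad3
  rcases L.dih.cases hq with ⟨i, hi, rfl⟩ | ⟨i, hi, rfl⟩
  · exact hpow i hi h
  · refine mul_mem (hpow i hi (mul_right_cancel (b := τ) ?_)) L.tau_mem_four
    rw [mul_assoc, hxτ, ← mul_assoc, h, mul_assoc]

theorem mem_centPair {c : G} (hz : c * σ ^ 2 = σ ^ 2 * c) (hτ : c * τ = τ * c) :
    ∃ q ∈ four P τ, ∃ o ∈ core O τ, c = q * o := by
  obtain ⟨q, hq, o, ho, rfl⟩ := L.decomp (mem_centralizer_singleton_iff.2 hz)
  have e : τ * q * τ⁻¹ * (τ * o * τ⁻¹) = q * o := by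
    calc τ * q * τ⁻¹ * (τ * o * τ⁻¹) = (τ * (q * o)) * τ⁻¹ := by group
      _ = q * o := by rw [← hτ]; group
  obtain ⟨e1, e2⟩ := L.unique (mul_mem (mul_mem L.dih.mem_τ hq) (inv_mem L.dih.mem_τ)) hq
    (L.tau_conj ho) ho e
  exact ⟨q, mem_four.2 ⟨hq, (mul_inv_eq_iff_eq_mul.1 e1).symm⟩, o,
    mem_core.2 ⟨ho, (mul_inv_eq_iff_eq_mul.1 e2).symm⟩, rfl⟩

theorem card_centPair :
    Nat.card (centralizer ({σ ^ 2, τ} : Set G)) = 4 * Nat.card (core O τ) := by
  have hmem : ∀ x : four P τ × core O τ, (x.1 : G) * x.2 ∈ centralizer ({σ ^ 2, τ} : Set G) := by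
    intro x
    refine mul_mem (mem_centralizer_pair.2 ⟨?_, (mem_four.1 x.1.2).2⟩)
      (mem_centralizer_pair.2 ⟨L.z_comm (mem_core.1 x.2.2).1, (mem_core.1 x.2.2).2⟩)
    exact mem_centralizer_singleton_iff.1 (L.P_le (mem_four.1 x.1.2).1)
  rw [← L.card_four, ← Nat.card_prod]
  refine (Nat.card_eq_of_bijective (fun x => ⟨_, hmem x⟩) ⟨?_, ?_⟩).symm
  · intro x y h
    obtain ⟨h1, h2⟩ := L.unique (mem_four.1 x.1.2).1 (mem_four.1 y.1.2).1 (mem_core.1 x.2.2).1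
      (mem_core.1 y.2.2).1 (congrArg Subtype.val h)
    exact Prod.ext (Subtype.ext h1) (Subtype.ext h2)
  · rintro ⟨c, hc⟩
    obtain ⟨h1, h2⟩ := mem_centralizer_pair.1 hc
    obtain ⟨q, hq, o, ho, rfl⟩ := L.mem_centPair h1 h2
    exact ⟨(⟨q, hq⟩, ⟨o, ho⟩), rfl⟩

theorem centralizer_four :
    centralizer (four P τ : Set G) = centralizer ({σ ^ 2, τ} : Set G) := by
  refine le_antisymm (centralizer_le ?_) fun c hc => ?_
  · rintro x (rfl | rfl)
    exacts [L.z_mem_four, L.tau_mem_four]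
  · obtain ⟨h1, h2⟩ := mem_centralizer_pair.1 hc
    rw [mem_centralizer_iff]
    intro q hq
    rcases L.four_cases hq with rfl | rfl | rfl | rfl
    · simp
    · exact h1.symm
    · exact h2.symm
    · rw [mul_assoc, ← h2, ← mul_assoc, ← h1, mul_assoc]

theorem mem_centElem {c x : G} (hx : x ∈ core O τ) (hx1 : x ≠ 1)
    (hz : c * σ ^ 2 = σ ^ 2 * c) (hc : c * x = x * c) :
    ∃ q ∈ four P τ, ∃ o ∈ O, c = q * o := by
  obtain ⟨q, hq, o, ho, rfl⟩ := L.decomp (mem_centralizer_singleton_iff.2 hz)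
  refine ⟨q, L.comm_mem_four hq hx hx1 (mul_right_cancel (b := o) ?_), o, ho, rfl⟩
  rw [mul_assoc, mul_assoc, ← L.comm ho (mem_core.1 hx).1, ← mul_assoc, hc]

/-- The order of the centralizer of `σ ^ 2` in a subgroup `K` squeezed between `four * O` and the
centralizer of a non-trivial `x ∈ core O τ`. -/
theorem card_inf_cent {K : Subgroup G} {x : G} (hx : x ∈ core O τ) (hx1 : x ≠ 1)
    (hVK : four P τ ≤ K) (hOK : O ≤ K) (hK : K ≤ centralizer ({x} : Set G)) :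
    Nat.card ↥(K ⊓ centralizer ({σ ^ 2} : Set G)) = 4 * Nat.card O := by
  rw [← L.card_four, ← Nat.card_prod]
  refine (Nat.card_eq_of_bijective (fun y : four P τ × O =>
    (⟨(y.1 : G) * y.2, mul_mem (hVK y.1.2) (hOK y.2.2),
      mul_mem (L.P_le (mem_four.1 y.1.2).1) (L.le y.2.2)⟩ :
        ↥(K ⊓ centralizer ({σ ^ 2} : Set G)))) ⟨?_, ?_⟩).symm
  · intro y y' h
    obtain ⟨h1, h2⟩ := L.unique (mem_four.1 y.1.2).1 (mem_four.1 y'.1.2).1 y.2.2 y'.2.2
      (congrArg Subtype.val h)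
    exact Prod.ext (Subtype.ext h1) (Subtype.ext h2)
  · rintro ⟨c, hcK, hcz⟩
    obtain ⟨q, hq, o, ho, rfl⟩ := L.mem_centElem hx hx1 (mem_centralizer_singleton_iff.1 hcz)
      (mem_centralizer_singleton_iff.1 (hK hcK))
    exact ⟨(⟨q, hq⟩, ⟨o, ho⟩), rfl⟩

theorem conj_core {g x : G} (hg : g ∈ normalizer (four P τ : Set G)) (hx : x ∈ core O τ) :
    g * x * g⁻¹ ∈ core O τ := by
  have hC : g * x * g⁻¹ ∈ centralizer (four P τ : Set G) := by
    rw [mem_centralizer_iff]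
    intro q hq
    have hq' : g⁻¹ * q * g ∈ four P τ := (mem_normalizer_iff''.mp hg q).mp hq
    calc q * (g * x * g⁻¹) = g * ((g⁻¹ * q * g) * x) * g⁻¹ := by group
      _ = g * (x * (g⁻¹ * q * g)) * g⁻¹ := by rw [L.four_comm_core hq' hx]
      _ = g * x * g⁻¹ * q := by group
  rw [L.centralizer_four] at hC
  obtain ⟨h1, h2⟩ := mem_centralizer_pair.1 hC
  refine mem_core.2 ⟨L.mem _ (mem_centralizer_singleton_iff.2 h1) ?_, h2⟩
  have : orderOf (g * x * g⁻¹) = orderOf x :=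
    orderOf_injective (MulAut.conj g).toMonoidHom (MulAut.conj g).injective x
  rw [this]
  exact L.odd_of_mem (mem_core.1 hx).1

theorem exists_moving : ∃ h ∈ normalizer (four P τ : Set G), h * σ ^ 2 * h⁻¹ ≠ σ ^ 2 := by
  classical
  have hsσ : τ ∈ (P : Subgroup G) := L.dih.mem_τ
  have hDD : TwoFusion.DData 2 (⟨σ, L.dih.mem_σ⟩ : (P : Subgroup G)) ⟨τ, hsσ⟩ := by
    refine TwoFusion.DData.of_card le_rfl (by rw [← Subgroup.orderOf_coe, L.dih.order]; rfl)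
      (by rw [L.dih.card]; rfl) ?_ (Subtype.ext L.dih.inv) (Subtype.ext L.dih.sq)
    intro hm
    obtain ⟨i, hi⟩ := mem_zpowers_iff.1 hm
    exact L.dih.notMem (mem_zpowers_iff.2 ⟨i, by simpa using congrArg Subtype.val hi⟩)
  have h6 := TwoFusion.Dih.six_of_all_conj hDD
    (fun x y hx hy => (L.one x hx).symm.trans (L.one y hy)) L.four_isFour inf_le_left
  by_contra hcon
  push Not at hcon
  set N := normalizer (four P τ : Set G)
  set C := centralizer (four P τ : Set G)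
  have key : ∀ g ∈ N, g * τ * g⁻¹ = τ ∨ g * τ * g⁻¹ = σ ^ 2 * τ := by
    intro g hg
    rcases L.four_cases ((mem_normalizer_iff.1 hg τ).1 L.tau_mem_four) with e | e | e | e
    · exact absurd (conj_eq_one_iff.1 e) fun e' => by
        have := L.dih.orderOf_refl 0
        rw [pow_zero, one_mul, e', orderOf_one] at this; omega
    · exact absurd (mul_left_cancel (mul_right_cancel (e.trans (hcon g hg).symm))) fun e' =>
        L.dih.refl_ne_pow 0 2 (by simpa using e')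
    · exact Or.inl e
    · exact Or.inr e
  have hle : C.relIndex N ≤ 2 := by
    rw [relIndex, index_eq_card]
    let f : N ⧸ C.subgroupOf N → Bool :=
      Quotient.lift (fun g : N => decide ((g : G) * τ * (g : G)⁻¹ = τ)) (by
        intro g g' hgg
        have hm : ((g : G)⁻¹ * g') ∈ C := by
          simpa [mem_subgroupOf] using QuotientGroup.leftRel_apply.1 hgg
        have e : (g : G)⁻¹ * g' * τ = τ * ((g : G)⁻¹ * g') :=
          ((mem_centralizer_iff.1 hm) τ L.tau_mem_four).symm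
        have : (g' : G) * τ * (g' : G)⁻¹ = (g : G) * τ * (g : G)⁻¹ := by
          calc (g' : G) * τ * (g' : G)⁻¹ = (g : G) * ((g : G)⁻¹ * g' * τ) * (g' : G)⁻¹ := by group
            _ = (g : G) * τ * (g : G)⁻¹ := by rw [e]; group
        simp only [this])
    have hf : Function.Injective f := by
      rintro ⟨g⟩ ⟨g'⟩ hgg
      refine Quotient.sound (QuotientGroup.leftRel_apply.2 ?_)
      have hgg' : ((g : G) * τ * (g : G)⁻¹ = τ) ↔ ((g' : G) * τ * (g' : G)⁻¹ = τ) :=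
        decide_eq_decide.1 hgg
      have e : (g : G) * τ * (g : G)⁻¹ = (g' : G) * τ * (g' : G)⁻¹ := by
        rcases key g g.2 with a | a <;> rcases key g' g'.2 with a' | a'
        · rw [a, a']
        · exact a.trans (hgg'.1 a).symm
        · exact (hgg'.2 a').trans a'.symm
        · rw [a, a']
      rw [mem_subgroupOf]
      change _ ∈ centralizer (four P τ : Set G)
      rw [L.centralizer_four, mem_centralizer_pair]
      constructor
      · have e1 := hcon _ (inv_mem g.2)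
        have e2 := hcon _ g'.2
        have e3 : ∀ k : G, k * σ ^ 2 * k⁻¹ = σ ^ 2 → k * σ ^ 2 = σ ^ 2 * k :=
          fun k hk => mul_inv_eq_iff_eq_mul.1 hk
        exact e3 _ (hcon _ (mul_mem (inv_mem g.2) g'.2))
      · show (g : G)⁻¹ * g' * τ = τ * ((g : G)⁻¹ * g')
        calc (g : G)⁻¹ * g' * τ = (g : G)⁻¹ * ((g' : G) * τ * (g' : G)⁻¹) * g' := by group
          _ = τ * ((g : G)⁻¹ * g') := by rw [← e]; group
    exact (Nat.card_le_card_of_injective f hf).trans (by simp)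
  omega

theorem exists_fuse {v : G} (hv : v ∈ four P τ) (hv1 : v ≠ 1) :
    ∃ r : G, r * v * r⁻¹ = σ ^ 2 ∧ r ∈ normalizer (four P τ : Set G) ∧
      ∀ x ∈ core O τ, r * x = x * r := by
  obtain ⟨h, hh, hz⟩ := L.exists_moving
  have hsw : ∀ q ∈ four P τ, q ≠ 1 → q ≠ σ ^ 2 → σ * q * σ⁻¹ = σ ^ 2 * q ∧
      σ⁻¹ * q * σ = σ ^ 2 * q := by
    intro q hq h1 h2
    have hτs : τ * σ = σ⁻¹ * τ := by rw [← L.dih.inv]; group
    have hs4 : σ ^ 2 * σ ^ 2 = 1 := by rw [← pow_add]; exact L.dih.pow_two_h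
    have hi : σ⁻¹ * σ⁻¹ = σ ^ 2 := by
      calc σ⁻¹ * σ⁻¹ = σ⁻¹ * σ⁻¹ * (σ ^ 2 * σ ^ 2) := by rw [hs4, mul_one]
        _ = σ ^ 2 := by group
    have a1 : σ * τ * σ⁻¹ = σ ^ 2 * τ := by
      calc σ * τ * σ⁻¹ = σ * σ * (σ⁻¹ * τ) * σ⁻¹ := by group
        _ = σ ^ 2 * τ := by rw [← hτs, pow_two]; group
    have a2 : σ⁻¹ * τ * σ = σ ^ 2 * τ := by
      rw [mul_assoc, hτs, ← mul_assoc, hi]
    rcases L.four_cases hq with rfl | rfl | rfl | rfl
    · exact absurd rfl h1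
    · exact absurd rfl h2
    · exact ⟨a1, a2⟩
    · have c1 : σ * σ ^ 2 * σ⁻¹ = σ ^ 2 := by
        rw [(Commute.self_pow σ 2).eq, mul_inv_cancel_right]
      constructor
      · calc σ * (σ ^ 2 * τ) * σ⁻¹ = σ * σ ^ 2 * σ⁻¹ * (σ * τ * σ⁻¹) := by group
          _ = σ ^ 2 * (σ ^ 2 * τ) := by rw [c1, a1]
      · calc σ⁻¹ * (σ ^ 2 * τ) * σ = σ ^ 2 * (σ⁻¹ * τ * σ) := by group
          _ = σ ^ 2 * (σ ^ 2 * τ) := by rw [a2]
  have hs4 : σ ^ 2 * σ ^ 2 = 1 := by rw [← pow_add]; exact L.dih.pow_two_h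
  have hσV : σ ∈ normalizer (four P τ : Set G) := by
    have hc : ∀ q ∈ four P τ, σ * q * σ⁻¹ ∈ four P τ ∧ σ⁻¹ * q * σ ∈ four P τ := by
      intro q hq
      by_cases h1 : q = 1
      · subst h1; simp
      by_cases h2 : q = σ ^ 2
      · subst h2
        constructor
        · rw [(Commute.self_pow σ 2).eq, mul_inv_cancel_right]; exact hq
        · rw [show σ⁻¹ * σ ^ 2 * σ = σ ^ 2 by group]; exact hq
      rw [(hsw q hq h1 h2).1, (hsw q hq h1 h2).2]
      exact ⟨mul_mem L.z_mem_four hq, mul_mem L.z_mem_four hq⟩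
    rw [mem_normalizer_iff]
    refine fun q => ⟨fun hq => (hc q hq).1, fun hq => ?_⟩
    have := (hc _ hq).2
    rwa [show σ⁻¹ * (σ * q * σ⁻¹) * σ = q by group] at this
  set r := h * σ * h⁻¹ * σ⁻¹ with hr
  have hrN : r ∈ normalizer (four P τ : Set G) :=
    mul_mem (mul_mem (mul_mem hh hσV) (inv_mem hh)) (inv_mem hσV)
  have hrC : ∀ x ∈ core O τ, r * x = x * r := by
    intro x hx
    refine mul_inv_eq_iff_eq_mul.1 ?_
    have h1 : σ⁻¹ * x * σ = x⁻¹ := by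
      calc σ⁻¹ * x * σ = σ⁻¹ * (x⁻¹)⁻¹ * σ := by rw [inv_inv]
        _ = σ⁻¹ * (σ * x⁻¹ * σ⁻¹) * σ := by rw [L.inv (inv_mem (mem_core.1 hx).1)]
        _ = x⁻¹ := by group
    have hw : h⁻¹ * x⁻¹ * h ∈ O := by
      have := L.conj_core (inv_mem hh) (inv_mem hx)
      rw [inv_inv] at this
      exact (mem_core.1 this).1
    calc r * x * r⁻¹ = h * (σ * (h⁻¹ * (σ⁻¹ * x * σ) * h) * σ⁻¹) * h⁻¹ := by rw [hr]; group
      _ = x := by rw [h1, L.inv hw]; group
  set w := h⁻¹ * σ ^ 2 * h with hw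
  set u := h * σ ^ 2 * h⁻¹ with hu
  have hwV : w ∈ four P τ := (mem_normalizer_iff''.1 hh _).1 L.z_mem_four
  have huV : u ∈ four P τ := (mem_normalizer_iff.1 hh _).1 L.z_mem_four
  have hw1 : w ≠ 1 := fun e => L.z_ne_one (by
    calc σ ^ 2 = h * w * h⁻¹ := by rw [hw]; group
      _ = 1 := by rw [e]; group)
  have hwz : w ≠ σ ^ 2 := fun e => hz (by
    calc u = h * w * h⁻¹ := by rw [hu, e]
      _ = σ ^ 2 := by rw [hw]; group)
  have hu1 : u ≠ 1 := fun e => L.z_ne_one (conj_eq_one_iff.1 e)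
  have cz : σ⁻¹ * σ ^ 2 * σ = σ ^ 2 := by group
  have e1 : r * σ ^ 2 * r⁻¹ = σ ^ 2 * u ∨ r * σ ^ 2 * r⁻¹ = u * σ ^ 2 := by
    right
    calc r * σ ^ 2 * r⁻¹ = h * (σ * (h⁻¹ * (σ⁻¹ * σ ^ 2 * σ) * h) * σ⁻¹) * h⁻¹ := by
          rw [hr]; group
      _ = h * (σ ^ 2 * w) * h⁻¹ := by rw [cz, ← hw, (hsw w hwV hw1 hwz).1]
      _ = u * (h * w * h⁻¹) := by rw [hu]; group
      _ = u * σ ^ 2 := by rw [hw]; group
  have hcomm : u * σ ^ 2 = σ ^ 2 * u :=
    L.four_isFour.comm huV L.z_mem_four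
  rw [hcomm, or_self] at e1
  have e2 : r⁻¹ * σ ^ 2 * r = u := by
    calc r⁻¹ * σ ^ 2 * r = σ * (h * (σ⁻¹ * (h⁻¹ * σ ^ 2 * h) * σ) * h⁻¹) * σ⁻¹ := by
          rw [hr]; group
      _ = σ * (h * (σ ^ 2 * w) * h⁻¹) * σ⁻¹ := by rw [← hw, (hsw w hwV hw1 hwz).2]
      _ = σ * (u * (h * w * h⁻¹)) * σ⁻¹ := by rw [hu]; group
      _ = σ * (u * σ ^ 2) * σ⁻¹ := by rw [hw]; group
      _ = (σ * u * σ⁻¹) * (σ * σ ^ 2 * σ⁻¹) := by group
      _ = u := by
        rw [(hsw u huV hu1 hz).1, (Commute.self_pow σ 2).eq, mul_inv_cancel_right, mul_assoc,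
          hcomm, ← mul_assoc, hs4, one_mul]
  by_cases hvz : v = σ ^ 2
  · exact ⟨1, by simp [hvz], one_mem _, by simp⟩
  have hvu : v = u ∨ v = σ ^ 2 * u := by
    rcases L.four_cases hv with rfl | rfl | rfl | rfl
    · exact absurd rfl hv1
    · exact absurd rfl hvz
    all_goals
      rcases L.four_cases huV with e | e | e | e
      · exact absurd e hu1
      · exact absurd e hz
      all_goals rw [e]; simp [← mul_assoc, hs4]
  rcases hvu with rfl | rfl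
  · refine ⟨r, ?_, hrN, hrC⟩
    calc r * u * r⁻¹ = r * (r⁻¹ * σ ^ 2 * r) * r⁻¹ := by rw [e2]
      _ = σ ^ 2 := by group
  · refine ⟨r⁻¹, ?_, inv_mem hrN, fun x hx => ?_⟩
    · calc r⁻¹ * (σ ^ 2 * u) * r⁻¹⁻¹ = r⁻¹ * (r * σ ^ 2 * r⁻¹) * r := by rw [e1, inv_inv]
        _ = σ ^ 2 := by group
    · rw [inv_mul_eq_iff_eq_mul, ← mul_assoc, hrC x hx, mul_inv_cancel_right]

end Loc

end Cfsg.Agent.SmallCent
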