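import Cfsg.Agent.SmallCent.Local
import Cfsg.Agent.SmallCent.Equations

/-!
# One trivial core: the other one is a trivial intersection subgroup
-/

set_option autoImplicit false
set_option linter.unusedSectionVars false
set_option linter.style.haveILetI false

open Subgroup

namespace Cfsg.Agent.SmallCent

universe u

variable {G : Type u} [Group G] [Fintype G]

theorem conj_mem_centralizer {A : Subgroup G} {c h : G} (hc : ∀ y ∈ A, c⁻¹ * y * c ∈ A)
    (hh : h ∈ centralizer (A : Set G)) : c * h * c⁻¹ ∈ centralizer (A : Set G) := by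
  rw [mem_centralizer_iff] at hh ⊢
  intro y hy
  calc y * (c * h * c⁻¹) = c * ((c⁻¹ * y * c) * h) * c⁻¹ := by group
    _ = c * (h * (c⁻¹ * y * c)) * c⁻¹ := by rw [hh _ (hc y hy)]
    _ = c * h * c⁻¹ * y := by group

namespace Loc

variable {P : Sylow 2 G} {σ τ : G} {O : Subgroup G} (L : Loc P σ τ O)
include L

theorem exists_ne_of_card (ha : 1 < Nat.card (core O τ)) : ∃ x ∈ core O τ, x ≠ 1 := by
  obtain ⟨x, hx⟩ := (core O τ).ne_bot_iff_exists_ne_one.1 ((core O τ).one_lt_card_iff_ne_bot.1 ha)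
  exact ⟨x, x.2, fun e => hx (Subtype.ext e)⟩

theorem cent_le {x : G} (hx : x ∈ core O τ) :
    centralizer (core O τ : Set G) ≤ centralizer ({x} : Set G) :=
  centralizer_le (Set.singleton_subset_iff.2 hx)

theorem exists_to_cent {x c : G} (hx : x ∈ core O τ) (hx1 : x ≠ 1)
    (hc : ∀ y ∈ core O τ, c⁻¹ * y * c ∈ core O τ) :
    ∃ k ∈ centralizer (core O τ : Set G),
      k * c ∈ centralizer ({σ ^ 2} : Set G) := by
  obtain ⟨T, z, -, hone, -, hzo, -⟩ := L.local_data hx hx1 le_rfl (L.cent_le hx)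
  let H := centralizer (core O τ : Set G)
  have hz : c * σ ^ 2 * c⁻¹ ∈ H := conj_mem_centralizer hc (L.four_le_cent L.z_mem_four)
  have ho : orderOf (⟨c * σ ^ 2 * c⁻¹, hz⟩ : H) = 2 := by
    rw [← Subgroup.orderOf_coe]
    exact (orderOf_injective (MulAut.conj c).toMonoidHom (MulAut.conj c).injective _).trans L.z_order
  have ho' : orderOf (⟨σ ^ 2, L.four_le_cent L.z_mem_four⟩ : H) = 2 := by
    rw [← Subgroup.orderOf_coe]; exact L.z_order
  obtain ⟨k, hk⟩ := isConj_iff.1 (hone _ _ ho ho')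
  refine ⟨k, k.2, mem_centralizer_singleton_iff.2 ?_⟩
  have e : (k : G) * (c * σ ^ 2 * c⁻¹) * (k : G)⁻¹ = σ ^ 2 := congrArg Subtype.val hk
  calc (k : G) * c * σ ^ 2 = (k : G) * (c * σ ^ 2 * c⁻¹) * (k : G)⁻¹ * ((k : G) * c) := by group
    _ = σ ^ 2 * ((k : G) * c) := by rw [e]

theorem cent_elem_eq (hb : Nat.card (core O (σ * τ)) = 1) {x : G} (hx : x ∈ core O τ)
    (hx1 : x ≠ 1) : centralizer ({x} : Set G) = centralizer (core O τ : Set G) := by
  refine le_antisymm (fun c hc => ?_) (L.cent_le hx)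
  obtain ⟨hn, -⟩ := L.local_core hx hx1 (L.cent_le hx) le_rfl hb
  obtain ⟨k, hk, hkz⟩ := L.exists_to_cent hx hx1 (c := c) (fun y hy => by
    simpa using hn c⁻¹ (inv_mem hc) y hy)
  obtain ⟨q, hq, o, ho, e⟩ := L.mem_centElem hx hx1 (mem_centralizer_singleton_iff.1 hkz)
    (mem_centralizer_singleton_iff.1 (mul_mem (L.cent_le hx hk) hc))
  have h := mul_mem (inv_mem hk) (e ▸ mul_mem (L.four_le_cent hq) (L.O_le_cent ho) :
    k * c ∈ centralizer (core O τ : Set G))
  rwa [inv_mul_cancel_left] at h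

theorem cent_cent {c : G}
    (h : ∀ k ∈ centralizer (core O τ : Set G), c * k = k * c) : c ∈ core O τ := by
  have hz := h _ (L.four_le_cent L.z_mem_four)
  have ht := h _ (L.four_le_cent L.tau_mem_four)
  obtain ⟨q, hq, o, ho, rfl⟩ := L.mem_centPair hz ht
  rcases eq_or_ne q 1 with rfl | hq1
  · rwa [one_mul]
  exfalso
  have hqk : ∀ k ∈ centralizer (core O τ : Set G), k * q = q * k := by
    intro k hk
    have e := h k hk
    rw [mul_assoc, (mem_centralizer_iff.1 hk o ho), ← mul_assoc, ← mul_assoc] at e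
    exact (mul_right_cancel e).symm
  obtain ⟨r, hr, -, hrC⟩ := L.exists_fuse hq hq1
  have hrH : r ∈ centralizer (core O τ : Set G) :=
    mem_centralizer_iff.2 fun y hy => (hrC y hy).symm
  rw [hqk r hrH, mul_inv_cancel_right] at hr
  have hτ1 : τ ≠ 1 := fun e => by
    have := L.dih.orderOf_refl 0
    rw [pow_zero, one_mul, e, orderOf_one] at this; omega
  obtain ⟨r', hr', -, hrC'⟩ := L.exists_fuse L.tau_mem_four hτ1
  have hk := hqk r' (mem_centralizer_iff.2 fun y hy => (hrC' y hy).symm)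
  rw [hr] at hk
  have e2 : τ = σ ^ 2 := by
    calc τ = r'⁻¹ * (r' * τ * r'⁻¹) * r' := by group
      _ = r'⁻¹ * (σ ^ 2 * r') := by rw [hr', mul_assoc]
      _ = σ ^ 2 := by rw [← hk, inv_mul_cancel_left]
  exact L.dih.refl_ne_pow 0 2 (by simpa using e2)

theorem sigma_notMem {x : G} (hx : x ∈ core O τ) (hx1 : x ≠ 1) :
    σ ∉ centralizer (core O τ : Set G) := fun h =>
  hx1 (L.sigma_free (mem_core.1 hx).1 (mem_centralizer_iff.1 h x hx))

theorem sigma_normalizes : σ ∈ normalizer (core O τ : Set G) := by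
  rw [mem_normalizer_iff]
  refine fun y => ⟨fun hy => ?_, fun hy => ?_⟩
  · rw [L.inv (mem_core.1 hy).1]; exact inv_mem hy
  · have h := L.inv (inv_mem (mem_core.1 hy).1)
    rw [inv_inv] at h
    have e : y = (σ * y * σ⁻¹)⁻¹ := by
      calc y = σ⁻¹ * (σ * y * σ⁻¹) * σ := by group
        _ = σ⁻¹ * (σ * (σ * y * σ⁻¹)⁻¹ * σ⁻¹) * σ := by rw [h]
        _ = (σ * y * σ⁻¹)⁻¹ := by group
    rw [e]; exact inv_mem hy

theorem index_two {x : G} (hx : x ∈ core O τ) (hx1 : x ≠ 1) :
    (centralizer (core O τ : Set G)).relIndex (normalizer (core O τ : Set G)) = 2 := by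
  set H := centralizer (core O τ : Set G)
  set M := normalizer (core O τ : Set G)
  have hno := L.sigma_notMem hx hx1
  rw [relIndex, index_eq_two_iff]
  refine ⟨⟨σ, L.sigma_normalizes⟩, fun m => ?_⟩
  simp only [mem_subgroupOf, Subgroup.coe_mul]
  have key : (m : G) ∈ H ∨ (m : G) * σ ∈ H := by
    obtain ⟨k, hk, hkz⟩ := L.exists_to_cent hx hx1 (c := m)
      (fun y hy => (mem_normalizer_iff''.1 m.2 y).1 hy)
    obtain ⟨q, hq, o, ho, e⟩ := L.decomp hkz
    have hσ2 : σ ^ 2 ∈ H := L.four_le_cent L.z_mem_four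
    have hτ : τ ∈ H := L.four_le_cent L.tau_mem_four
    have ho' := L.O_le_cent ho
    have hc1 : ∀ i < 2 * 2, σ ^ i ∈ H ∨ ∃ h ∈ H, σ ^ i = h * σ := by
      intro i hi
      rcases (show i = 0 ∨ i = 1 ∨ i = 2 ∨ i = 3 by omega) with rfl | rfl | rfl | rfl
      · exact Or.inl (by simp)
      · exact Or.inr ⟨1, one_mem _, by simp⟩
      · exact Or.inl hσ2
      · exact Or.inr ⟨σ ^ 2, hσ2, pow_succ σ 2⟩
    -- `σ` normalizes `H`
    have hnH : ∀ h ∈ H, σ * h * σ⁻¹ ∈ H := fun h hh => conj_mem_centralizer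
      (fun y hy => (mem_normalizer_iff''.1 L.sigma_normalizes y).1 hy) hh
    have hnH' : ∀ h ∈ H, σ⁻¹ * h * σ ∈ H := fun h hh => by
      simpa using conj_mem_centralizer (c := σ⁻¹)
        (fun y hy => by simpa using (mem_normalizer_iff.1 L.sigma_normalizes y).1 hy) hh
    have hr : q ∈ H ∨ ∃ h ∈ H, q = h * σ := by
      rcases L.dih.cases hq with ⟨i, hi, rfl⟩ | ⟨i, hi, rfl⟩
      · exact hc1 i hi
      · rcases hc1 i hi with h | ⟨h, hh, e'⟩
        · exact Or.inl (mul_mem h hτ)
        · refine Or.inr ⟨h * (σ * τ * σ⁻¹), mul_mem hh (hnH τ hτ), ?_⟩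
          rw [e']; group
    have em : (m : G) = k⁻¹ * (q * o) := by rw [← e, inv_mul_cancel_left]
    rcases hr with h | ⟨h, hh, rfl⟩
    · exact Or.inl (by rw [em]; exact mul_mem (inv_mem hk) (mul_mem h ho'))
    · refine Or.inr ?_
      rw [em, show k⁻¹ * (h * σ * o) * σ = k⁻¹ * h * σ ^ 2 * (σ⁻¹ * o * σ) by group]
      exact mul_mem (mul_mem (mul_mem (inv_mem hk) hh) hσ2) (hnH' o ho')
  have hex : ¬ ((m : G) * σ ∈ H ∧ (m : G) ∈ H) := fun h => hno (by
    have := mul_mem (inv_mem h.2) h.1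
    rwa [inv_mul_cancel_left] at this)
  rcases key with h | h
  · exact Or.inr ⟨h, fun h' => hex ⟨h', h⟩⟩
  · exact Or.inl ⟨h, fun h' => hex ⟨h, h'⟩⟩

theorem ti (hb : Nat.card (core O (σ * τ)) = 1) {g x : G} (hx : x ∈ core O τ) (hx1 : x ≠ 1)
    (hgx : g * x * g⁻¹ ∈ core O τ) : g ∈ normalizer (core O τ : Set G) := by
  have key : ∀ h : G, h ∈ centralizer (core O τ : Set G) ↔
      g * h * g⁻¹ ∈ centralizer (core O τ : Set G) := by
    intro h
    have hne : g * x * g⁻¹ ≠ 1 := fun e => hx1 (conj_eq_one_iff.1 e)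
    constructor
    · intro hh
      rw [← L.cent_elem_eq hb hgx hne, mem_centralizer_singleton_iff]
      rw [← L.cent_elem_eq hb hx hx1, mem_centralizer_singleton_iff] at hh
      calc g * h * g⁻¹ * (g * x * g⁻¹) = g * (h * x) * g⁻¹ := by group
        _ = g * (x * h) * g⁻¹ := by rw [hh]
        _ = g * x * g⁻¹ * (g * h * g⁻¹) := by group
    · intro hh
      rw [← L.cent_elem_eq hb hgx hne, mem_centralizer_singleton_iff] at hh
      rw [← L.cent_elem_eq hb hx hx1, mem_centralizer_singleton_iff]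
      calc h * x = g⁻¹ * (g * h * g⁻¹ * (g * x * g⁻¹)) * g := by group
        _ = g⁻¹ * (g * x * g⁻¹ * (g * h * g⁻¹)) * g := by rw [hh]
        _ = x * h := by group
  rw [mem_normalizer_iff]
  refine fun y => ⟨fun hy => L.cent_cent fun k hk => ?_, fun hy => L.cent_cent fun k hk => ?_⟩
  · have hk' := (key (g⁻¹ * k * g)).2 (by simpa [mul_assoc] using hk)
    have e : y * (g⁻¹ * k * g) = g⁻¹ * k * g * y := mem_centralizer_iff.1 hk' y hy
    calc g * y * g⁻¹ * k = g * (y * (g⁻¹ * k * g)) * g⁻¹ := by group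
      _ = g * (g⁻¹ * k * g * y) * g⁻¹ := by rw [e]
      _ = k * (g * y * g⁻¹) := by group
  · have e := mem_centralizer_iff.1 ((key k).1 hk) _ hy
    calc y * k = g⁻¹ * (g * y * g⁻¹ * (g * k * g⁻¹)) * g := by group
      _ = g⁻¹ * (g * k * g⁻¹ * (g * y * g⁻¹)) * g := by rw [e]
      _ = k * y := by group

theorem order_of_one_sided (hb : Nat.card (core O (σ * τ)) = 1) (ha : 1 < Nat.card (core O τ)) :
    Nat.card G = 2520 := by
  classical
  obtain ⟨x₀, hx₀, hx₀1⟩ := L.exists_ne_of_card ha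
  set A := core O τ with hA
  set H := centralizer (A : Set G) with hH
  set M := normalizer (A : Set G) with hM
  obtain ⟨-, h, hh, hHc⟩ := L.local_core hx₀ hx₀1 le_rfl (L.cent_le hx₀) hb
  have hHM : H ≤ M := centralizer_le_normalizer _
  have h2 : H.relIndex M = 2 := L.index_two hx₀ hx₀1
  have hMc : Nat.card M = 2 * (h * Nat.card A) := by
    rw [← hHc, ← h2, relIndex, ← Nat.card_congr (subgroupOfEquivOfLe hHM).toEquiv,
      index_mul_card]
  have hg : Nat.card G = 2 * Nat.card A * h * M.index := by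
    rw [← M.card_mul_index, hMc]; ring
  have hodd : ∀ y ∈ M, Odd (orderOf y) → y ∈ H := by
    intro y hy ho
    refine mem_of_pow_mem (k := 1) ho ?_
    have := Subgroup.mul_self_mem_of_index_two (H := H.subgroupOf M) h2 ⟨y, hy⟩
    rw [mem_subgroupOf] at this
    rw [pow_one, pow_two]; exact this
  have hdiv : Nat.card A ∣ h ∨ (Nat.card A : ℤ) ∣ (M.index : ℤ) - 1 := by
    by_cases hex : ∃ g, g ∉ M ∧ ∃ x ∈ A, x ≠ 1 ∧ g⁻¹ * x * g ∈ M
    · refine Or.inl ?_
      obtain ⟨g, hg, x, hx, hx1, hgx⟩ := hex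
      have hH' : g⁻¹ * x * g ∈ H := hodd _ hgx (by
        have : orderOf (g⁻¹ * x * g) = orderOf x := by
          simpa using orderOf_injective (MulAut.conj g⁻¹).toMonoidHom (MulAut.conj g⁻¹).injective x
        rw [this]; exact L.odd_of_mem (mem_core.1 hx).1)
      have hgA : ∀ y ∈ A, g * y * g⁻¹ ∈ H := by
        intro y hy
        rw [hH, ← L.cent_elem_eq hb hx hx1, mem_centralizer_singleton_iff]
        have e := mem_centralizer_iff.1 hH' y hy
        calc g * y * g⁻¹ * x = g * (y * (g⁻¹ * x * g)) * g⁻¹ := by group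
          _ = g * (g⁻¹ * x * g * y) * g⁻¹ := by rw [e]
          _ = x * (g * y * g⁻¹) := by group
      let f : A × A →* H :=
        { toFun := fun p => ⟨(p.1 : G) * (g * p.2 * g⁻¹),
            mul_mem (L.core_le_cent p.1.2) (hgA _ p.2.2)⟩
          map_one' := Subtype.ext (by simp)
          map_mul' := fun p q => Subtype.ext (by
            have e := mem_centralizer_iff.1 (hgA _ p.2.2) q.1 q.1.2
            show (p.1 : G) * q.1 * (g * (p.2 * q.2) * g⁻¹)
              = (p.1 : G) * (g * p.2 * g⁻¹) * (q.1 * (g * q.2 * g⁻¹))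
            calc (p.1 : G) * q.1 * (g * (p.2 * q.2) * g⁻¹)
                = (p.1 : G) * ((q.1 : G) * (g * p.2 * g⁻¹)) * (g * q.2 * g⁻¹) := by group
              _ = _ := by rw [e]; group) }
      have hf : Function.Injective f := by
        refine (injective_iff_map_eq_one f).2 fun p hp => ?_
        have e : (p.1 : G) * (g * p.2 * g⁻¹) = 1 := congrArg Subtype.val hp
        have h2' : p.2 = 1 := by
          by_contra hne
          refine hg (L.ti hb p.2.2 (fun e' => hne (Subtype.ext e')) ?_)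
          rw [eq_inv_of_mul_eq_one_right e]; exact inv_mem p.1.2
        rw [h2'] at e
        exact Prod.ext (Subtype.ext (by simpa using e)) h2'
      have hd := card_dvd_of_injective f hf
      rw [Nat.card_prod, hHc] at hd
      exact Nat.dvd_of_mul_dvd_mul_right Nat.card_pos hd
    · refine Or.inr ?_
      push Not at hex
      let S : SubMulAction A (G ⧸ M) :=
        { carrier := {p | p ≠ ((1 : G) : G ⧸ M)}
          smul_mem' := fun y p hp e => hp (by
            have h1 : (y⁻¹ : A) • ((1 : G) : G ⧸ M) = ((1 : G) : G ⧸ M) := by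
              show ((((y⁻¹ : A) : G) * 1 : G) : G ⧸ M) = _
              rw [QuotientGroup.eq]
              simpa using le_normalizer (H := A) y.2
            rw [← inv_smul_smul y p, e, h1]) }
      have hfree : ∀ p : S, MulAction.stabilizer A p = ⊥ := by
        intro p
        rw [eq_bot_iff]
        intro y hy
        rw [Subgroup.mem_bot]
        by_contra hy1
        obtain ⟨g, hgp⟩ := QuotientGroup.mk_surjective (p : G ⧸ M)
        have hgM : g ∉ M := fun hm => p.2 (by
          show (p : G ⧸ M) = _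
          rw [← hgp, QuotientGroup.eq]; simpa using inv_mem hm)
        have e : (((y : G) * g : G) : G ⧸ M) = (g : G ⧸ M) := by
          have := congrArg Subtype.val (MulAction.mem_stabilizer_iff.1 hy)
          rw [SubMulAction.val_smul, ← hgp] at this
          exact this
        rw [QuotientGroup.eq] at e
        refine hex g hgM y y.2 (fun e' => hy1 (Subtype.ext e')) ?_
        have h' := inv_mem e
        rwa [mul_inv_rev, inv_inv, ← mul_assoc] at h'
      have hS : Nat.card S = Nat.card (Quotient (MulAction.orbitRel A S)) * Nat.card A := by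
        rw [Nat.card_congr (MulAction.selfEquivOrbitsQuotientProd hfree), Nat.card_prod]
      have hsum : Nat.card S + 1 = M.index := by
        rw [index_eq_card, ← Finite.card_option]
        exact Nat.card_congr (Equiv.optionSubtypeNe ((1 : G) : G ⧸ M))
      refine ⟨(Nat.card (Quotient (MulAction.orbitRel A S)) : ℤ), ?_⟩
      rw [← hsum, hS]; push_cast; ring
  obtain ⟨K, p, q, E⟩ := L.exists_eqs
  rw [hb] at E
  have h8 : 8 ∣ Nat.card G := by
    rw [← (show Nat.card (P : Subgroup G) = 8 from L.dih.card)]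
    exact card_subgroup_dvd_card _
  have ha3 : 3 ≤ Nat.card A := by
    obtain ⟨k, hk⟩ := L.odd_core
    rw [hA] at ha ⊢; omega
  exact Arith.one_sided E L.odd_core ha3 h8 hh hg hdiv

end Loc

end Cfsg.Agent.SmallCent
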